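import Mathlib

/-!
Facts about `A₅` acting on five points.
-/

set_option autoImplicit false
set_option maxRecDepth 100000
set_option synthInstance.maxSize 2000
set_option synthInstance.maxHeartbeats 200000
set_option maxSynthPendingDepth 3

namespace CfsgLib.InvChar.HallJanko

open Equiv

theorem alt_invol_struct : ∀ π : alternatingGroup (Fin 5), π ≠ 1 → π * π = 1 →
    ∃ k i j l m : Fin 5, (π : Perm (Fin 5)) k = k ∧ (π : Perm (Fin 5)) i = j ∧
      (π : Perm (Fin 5)) j = i ∧ (π : Perm (Fin 5)) l = m ∧ (π : Perm (Fin 5)) m = l ∧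
      k ≠ i ∧ k ≠ j ∧ k ≠ l ∧ k ≠ m ∧ i ≠ j ∧ i ≠ l ∧ i ≠ m ∧ j ≠ l ∧ j ≠ m ∧ l ≠ m := by
  decide +kernel

theorem alt_invol_fixed_unique : ∀ π : alternatingGroup (Fin 5), π ≠ 1 → π * π = 1 →
    ∀ k k' : Fin 5, (π : Perm (Fin 5)) k = k → (π : Perm (Fin 5)) k' = k' → k = k' := by
  decide +kernel

theorem alt_invol_conj : ∀ π ρ : alternatingGroup (Fin 5), π ≠ 1 → π * π = 1 → ρ ≠ 1 →
    ρ * ρ = 1 → ∃ g : alternatingGroup (Fin 5), g * π * g⁻¹ = ρ := by
  decide +kernel

theorem alt_invol_centralizer : ∀ π : alternatingGroup (Fin 5), π ≠ 1 → π * π = 1 →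
    (Finset.univ.filter fun g : alternatingGroup (Fin 5) => g * π = π * g).card = 4 ∧
    ∀ g k, g * π = π * g → (π : Perm (Fin 5)) k = k →
      g * g = 1 ∧ (g : Perm (Fin 5)) k = k := by
  decide +kernel

theorem alt_fix_two_sub : ∀ (g : alternatingGroup (Fin 5)) (k : Fin 5),
    g ^ 4 = 1 → g * g = 1 := by
  decide +kernel

theorem alt_klein_card : ∀ k : Fin 5, (Finset.univ.filter fun g : alternatingGroup (Fin 5) =>
    g * g = 1 ∧ (g : Perm (Fin 5)) k = k).card = 4 := by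
  decide +kernel

theorem alt_transitive : ∀ i j : Fin 5, ∃ g : alternatingGroup (Fin 5),
    (g : Perm (Fin 5)) i = j := by
  decide +kernel

theorem alt_moved_card : ∀ i : Fin 5, (Finset.univ.filter fun g : alternatingGroup (Fin 5) =>
    g * g = 1 ∧ (g : Perm (Fin 5)) i ≠ i).card = 12 := by
  decide +kernel

theorem alt_card : Nat.card (alternatingGroup (Fin 5)) = 60 := by
  rw [Nat.card_eq_fintype_card]
  decide +kernel

end CfsgLib.InvChar.HallJanko
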