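import Mathlib

/-!
An involution and an element of order three in `A₅` spanning a point stabiliser, and the second
point they determine.
-/

set_option autoImplicit false
set_option maxRecDepth 100000
set_option synthInstance.maxSize 2000
set_option synthInstance.maxHeartbeats 200000

namespace CfsgLib.InvChar.HallJanko

theorem alt_second_point : ∀ a c : alternatingGroup (Fin 5), a ≠ 1 → a * a = 1 → c ≠ 1 →
    c * c * c = 1 → a * (c * a * c⁻¹) = c * a * c⁻¹ * a →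
    ∃ b : alternatingGroup (Fin 5), b * b = 1 ∧ b ≠ 1 ∧
      b * (c * b * c⁻¹) = c * b * c⁻¹ * b ∧ c * b * c⁻¹ ≠ b ∧
      (b ≠ a ∧ b ≠ c * a * c⁻¹ ∧ b ≠ c * c * a * (c * c)⁻¹) ∧
      (∀ b' : alternatingGroup (Fin 5), b' * b' = 1 → b' ≠ 1 →
        b' * (c * b' * c⁻¹) = c * b' * c⁻¹ * b' → b' ≠ a → b' ≠ c * a * c⁻¹ →
        b' ≠ c * c * a * (c * c)⁻¹ →
        b' = b ∨ b' = c * b * c⁻¹ ∨ b' = c * c * b * (c * c)⁻¹) ∧
      (((a * b) ^ 5 = 1 ∧ a * b ≠ 1) ∨ ((c * a * c⁻¹ * b) ^ 5 = 1 ∧ c * a * c⁻¹ * b ≠ 1) ∨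
        ((c * c * a * (c * c)⁻¹ * b) ^ 5 = 1 ∧ c * c * a * (c * c)⁻¹ * b ≠ 1)) := by
  decide +kernel

theorem alt_five_invert : ∀ g : alternatingGroup (Fin 5), g ^ 5 = 1 → g ≠ 1 →
    ∃ r : alternatingGroup (Fin 5), r * r = 1 ∧ r * g * r⁻¹ = g⁻¹ := by
  decide +kernel

theorem alt_five_normalizer : ∀ g : alternatingGroup (Fin 5), g ^ 5 = 1 → g ≠ 1 →
    (Finset.univ.filter fun w : alternatingGroup (Fin 5) =>
      ∃ k : Fin 5, w * g * w⁻¹ = g ^ (k : ℕ)).card ≤ 10 := by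
  decide +kernel

end CfsgLib.InvChar.HallJanko
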