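import Cfsg.Agent.Lib.InvChar.HallJanko.Fusion

/-!
`C(t) ∩ C(z)` for commuting involutions `z` and `t` of the two classes is elementary abelian of
order `16` and centralises the three conjugates of `z` in it.
-/

set_option autoImplicit false
set_option linter.unusedSectionVars false
set_option linter.style.haveILetI false

open Cfsg

namespace CfsgLib.InvChar.HallJanko

universe u

variable {G : Type u} [Group G] [Finite G]

theorem orderOf_conj' (g x : G) : orderOf (g * x * g⁻¹) = orderOf x :=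
  orderOf_injective (MulAut.conj g).toMonoidHom (MulAut.conj g).injective x

theorem conj_mem_centralizer {g x y : G} (hy : y ∈ Subgroup.centralizer ({x} : Set G)) :
    g * y * g⁻¹ ∈ Subgroup.centralizer ({g * x * g⁻¹} : Set G) := by
  rw [mem_C, show g * y * g⁻¹ * (g * x * g⁻¹) = g * (y * x) * g⁻¹ by group, mem_C.1 hy]
  group

theorem map_conj_centralizer (g x : G) :
    (Subgroup.centralizer ({x} : Set G)).map (MulAut.conj g).toMonoidHom =
      Subgroup.centralizer ({g * x * g⁻¹} : Set G) := by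
  refine le_antisymm ?_ fun y hy => ?_
  · rintro y ⟨w, hw, rfl⟩
    exact conj_mem_centralizer hw
  · refine ⟨g⁻¹ * y * g, ?_, show g * (g⁻¹ * y * g) * g⁻¹ = y by group⟩
    have := conj_mem_centralizer (g := g⁻¹) hy
    rwa [inv_inv, show g⁻¹ * (g * x * g⁻¹) * g = x by group] at this

namespace HJ

variable {z : G} {Q : Subgroup G} (h : HJ z Q)
include h

theorem conj (g : G) : HJ (g * z * g⁻¹) (Q.map (MulAut.conj g).toMonoidHom) where
  order := by rw [orderOf_conj', h.order]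
  le := by
    rw [← map_conj_centralizer]
    exact Subgroup.map_mono h.le
  normal := by
    rw [← map_conj_centralizer]
    rintro _ ⟨w, hw, rfl⟩ _ ⟨q, hq, rfl⟩
    exact ⟨w * q * w⁻¹, h.normal w hw q hq, by simp [mul_assoc]⟩
  extra := PGroups.IsExtraspecial.of_mulEquiv
    (Q.equivMapOfInjective _ (MulAut.conj g).injective) h.extra
  card := by rw [Subgroup.card_map_of_injective (MulAut.conj g).injective, h.card]
  cen := by
    rw [← map_conj_centralizer]
    rintro _ ⟨w, hw, rfl⟩ hc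
    refine ⟨w, h.cen w hw fun q hq => (MulAut.conj g).injective ?_, rfl⟩
    rw [map_mul, map_mul]
    exact hc _ ⟨q, hq, rfl⟩
  quot := by
    obtain ⟨φ, hφs, hφk⟩ := h.quot
    have hmem : ∀ y : ↥(Subgroup.centralizer ({g * z * g⁻¹} : Set G)),
        g⁻¹ * (y : G) * g ∈ Subgroup.centralizer ({z} : Set G) := fun y => by
      have := conj_mem_centralizer (g := g⁻¹) y.2
      rwa [inv_inv, show g⁻¹ * (g * z * g⁻¹) * g = z by group] at this
    let c : ↥(Subgroup.centralizer ({g * z * g⁻¹} : Set G)) →*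
        ↥(Subgroup.centralizer ({z} : Set G)) :=
      { toFun := fun y => ⟨g⁻¹ * (y : G) * g, hmem y⟩
        map_one' := Subtype.ext (by simp)
        map_mul' := fun a b => Subtype.ext (by simp [mul_assoc]) }
    refine ⟨φ.comp c, hφs.comp fun w => ⟨⟨g * (w : G) * g⁻¹, conj_mem_centralizer w.2⟩,
      Subtype.ext (show g⁻¹ * (g * (w : G) * g⁻¹) * g = w by group)⟩, fun x => ?_⟩
    show φ (c x) = 1 ↔ _
    rw [hφk]
    constructor
    · exact fun hx => ⟨_, hx, show g * (g⁻¹ * (x : G) * g) * g⁻¹ = x by group⟩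
    · rintro ⟨w, hw, e⟩
      show g⁻¹ * (x : G) * g ∈ Q
      rw [← e, show g⁻¹ * ((MulAut.conj g).toMonoidHom w) * g = g⁻¹ * (g * w * g⁻¹) * g from rfl,
        show g⁻¹ * (g * w * g⁻¹) * g = w by group]
      exact hw
  nwc := by
    obtain ⟨c, hc, hne⟩ := h.nwc
    refine ⟨g * c * g⁻¹, ⟨_, hc, ?_⟩, fun e => hne ?_⟩
    · show g * (c * z * c⁻¹) * g⁻¹ = _
      group
    · rw [show g * c * g⁻¹ * (g * z * g⁻¹) * (g * c * g⁻¹)⁻¹ = g * (c * z * c⁻¹) * g⁻¹ by group]
        at e
      exact mul_left_cancel (mul_right_cancel e)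
  two := h.two

theorem exists_of_isConj {v : G} (hv : IsConj z v) : ∃ Q' : Subgroup G, HJ v Q' := by
  obtain ⟨g, rfl⟩ := isConj_iff.1 hv
  exact ⟨_, h.conj g⟩

theorem card_centralizer_invol {q : G} (hq : q ∈ Q) (hq2 : q * q = 1) (h1 : q ≠ 1) (hz : q ≠ z) :
    Nat.card ↥(Q ⊓ Subgroup.centralizer ({q} : Set G)) = 16 := by
  obtain ⟨F⟩ := h.nonempty_frame
  obtain ⟨n, e⟩ := F.all q hq hq2 h1 hz
  rw [← F.card_centralizer_point h n]
  have : Q ⊓ Subgroup.centralizer ({q} : Set G) = Q ⊓ Subgroup.centralizer ({F.a n} : Set G) := by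
    ext w
    simp only [Subgroup.mem_inf, mem_C]
    refine and_congr_right fun hw => ?_
    rcases e with e | e <;> rw [e]
    rw [← mul_assoc, mul_assoc (F.a n), ← h.comm_z hw, ← mul_assoc]
    exact ⟨fun e' => mul_right_cancel e', fun e' => by rw [e']⟩
  rw [this]

/-- The four elements `1, z, s, sz`. -/
theorem eqv_four {q s : G} (hq : Eqv z q 1 ∨ Eqv z q s) : q = 1 ∨ q = z ∨ q = s ∨ q = s * z := by
  rcases hq with (e | e) | e | e
  · exact Or.inl e
  · exact Or.inr (Or.inl (e.trans (one_mul z)))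
  · exact Or.inr (Or.inr (Or.inl e))
  · exact Or.inr (Or.inr (Or.inr e))

/-- `C(t) ∩ C(z)` for an involution `t` of `C(z)` outside `Q`. -/
theorem four_structure {t : G} (htH : t ∈ Subgroup.centralizer ({z} : Set G)) (htQ : t ∉ Q)
    (htt : t * t = 1) :
    ∃ s : G, s ∈ Q ∧ s * s = 1 ∧ s ≠ 1 ∧ s ≠ z ∧ t * s = s * t ∧
      (∀ q ∈ Q, t * q = q * t → q = 1 ∨ q = z ∨ q = s ∨ q = s * z) ∧
      Nat.card ↥(Subgroup.centralizer ({t} : Set G) ⊓ Subgroup.centralizer ({z} : Set G)) = 16 ∧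
      ∀ u ∈ Subgroup.centralizer ({t} : Set G) ⊓ Subgroup.centralizer ({z} : Set G),
        u * s = s * u := by
  classical
  haveI := Fintype.ofFinite G
  obtain ⟨F⟩ := h.nonempty_frame
  set y : ↥(Subgroup.centralizer ({z} : Set G)) := ⟨t, htH⟩ with hydef
  have hy2 : (y : G) * y = 1 ∨ (y : G) * y = z := Or.inl htt
  have hψ1 : F.ψ y ≠ 1 := fun e => htQ ((F.ker y).1 e)
  have hψ2 := F.psi_sq h hy2
  obtain ⟨k, i, j, l, m, p⟩ := F.exists_pattern h hψ1 hψ2
  set s := F.a k with hs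
  have hts : t * s = s * t := mul_inv_eq_iff_eq_mul.1 (F.fix_point h hy2 p)
  have hCQ : ∀ q ∈ Q, t * q = q * t → q = 1 ∨ q = z ∨ q = s ∨ q = s * z :=
    fun q hq hc => F.centralizer_cases h hy2 p hq hc
  have hti : t⁻¹ = t := inv_eq_of_mul_eq_one_right htt
  set U := Subgroup.centralizer ({t} : Set G) ⊓ Subgroup.centralizer ({z} : Set G) with hU
  -- order
  let θ : ↥U →* alternatingGroup (Fin 5) := F.ψ.comp (Subgroup.inclusion inf_le_right)
  have hθker : Nat.card θ.ker = 4 := by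
    have hzs : z ≠ s := (F.ne_z k).symm
    have e : Nat.card θ.ker = ({1, z, s, s * z} : Finset G).card := by
      rw [← Nat.card_eq_finsetCard]
      refine Nat.card_congr ⟨fun w => ⟨((w.1 : ↥U) : G), ?_⟩, fun w => ⟨⟨w.1, ?_⟩, ?_⟩,
        fun _ => rfl, fun _ => rfl⟩
      · simp only [Finset.mem_insert, Finset.mem_singleton]
        exact hCQ _ ((F.ker _).1 w.2) (mem_C.1 w.1.2.1).symm
      · obtain ⟨w, hw⟩ := w
        simp only [Finset.mem_insert, Finset.mem_singleton] at hw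
        refine Subgroup.mem_inf.2 ⟨mem_C.2 (?_ : w * t = t * w), (?_ : w ∈ _)⟩
        · rcases hw with e | e | e | e
          · rw [e, one_mul, mul_one]
          · rw [e, mem_C.1 htH]
          · rw [e, hts]
          · rw [e, mul_assoc, ← mem_C.1 htH, ← mul_assoc, ← hts, mul_assoc]
        · rcases hw with e | e | e | e <;> rw [e]
          exacts [Subgroup.one_mem _, mem_C.2 rfl, h.le (F.mem k),
            h.le (Q.mul_mem (F.mem k) h.z_mem)]
      · obtain ⟨w, hw⟩ := w
        simp only [Finset.mem_insert, Finset.mem_singleton] at hw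
        refine (F.ker _).2 ?_
        show w ∈ Q
        rcases hw with e | e | e | e <;> rw [e]
        exacts [Q.one_mem, h.z_mem, F.mem k, Q.mul_mem (F.mem k) h.z_mem]
    rw [e]
    have h1 : z ≠ 1 := h.z_ne_one
    have h2 : s ≠ 1 := F.ne_one k
    have h3 : s * z ≠ 1 := fun e => hzs ((eq_inv_of_mul_eq_one_right e).trans
      (inv_eq_of_mul_eq_one_right (F.sq k)))
    have h4 : s * z ≠ z := fun e => h2 (mul_eq_right.1 e)
    have h5 : s * z ≠ s := fun e => h1 (mul_eq_left.1 e)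
    rw [Finset.card_insert_of_notMem (by simp [h1.symm, h2.symm, h3.symm]),
      Finset.card_insert_of_notMem (by simp [hzs, h4.symm]),
      Finset.card_insert_of_notMem (by simp [h5.symm]), Finset.card_singleton]
  have hrange : Nat.card θ.range = 4 := by
    rw [← (alt_invol_centralizer _ hψ1 hψ2).1, ← Nat.card_eq_finsetCard]
    refine Nat.card_congr (Equiv.subtypeEquivRight fun π => ?_)
    rw [Finset.mem_filter]
    constructor
    · rintro ⟨w, rfl⟩
      refine ⟨Finset.mem_univ _, ?_⟩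
      show F.ψ (Subgroup.inclusion _ w) * F.ψ y = F.ψ y * F.ψ (Subgroup.inclusion _ w)
      rw [← map_mul, ← map_mul]
      exact congrArg F.ψ (Subtype.ext (mem_C.1 w.2.1))
    · rintro ⟨-, hπ⟩
      obtain ⟨c, rfl⟩ := F.surj π
      have hq : t⁻¹ * ((c : G) * t * (c : G)⁻¹) ∈ Q := (F.ker (y⁻¹ * (c * y * c⁻¹))).1 (by
        rw [map_mul, map_inv, map_mul, map_mul, map_inv, hπ, mul_inv_cancel_right, inv_mul_cancel])
      obtain ⟨-, g, hg, e⟩ := h.conj_of_coset htH htQ htt hq (Or.inl (by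
        rw [mul_inv_cancel_left, show (c : G) * t * (c : G)⁻¹ * ((c : G) * t * (c : G)⁻¹) =
          (c : G) * (t * t) * (c : G)⁻¹ by group, htt, mul_one, mul_inv_cancel]))
      rw [mul_inv_cancel_left] at e
      have hw : g⁻¹ * (c : G) ∈ U := by
        refine Subgroup.mem_inf.2 ⟨mem_C.2 ?_,
          Subgroup.mul_mem _ (Subgroup.inv_mem _ (h.le hg)) c.2⟩
        calc g⁻¹ * (c : G) * t = g⁻¹ * ((c : G) * t * (c : G)⁻¹) * (c : G) := by group
          _ = t * (g⁻¹ * (c : G)) := by rw [← e]; group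
      refine ⟨⟨g⁻¹ * (c : G), hw⟩, ?_⟩
      show F.ψ ⟨g⁻¹ * (c : G), hw.2⟩ = F.ψ c
      rw [show (⟨g⁻¹ * (c : G), hw.2⟩ : ↥(Subgroup.centralizer ({z} : Set G))) =
        ⟨g, h.le hg⟩⁻¹ * c from rfl, map_mul, map_inv, (F.ker ⟨g, h.le hg⟩).2 hg, inv_one, one_mul]
  have hU16 : Nat.card ↥U = 16 := by
    rw [Subgroup.card_eq_card_quotient_mul_card_subgroup θ.ker,
      Nat.card_congr (QuotientGroup.quotientKerEquivRange θ).toEquiv, hrange, hθker]
  -- the group `C(s) ∩ C(z)`
  obtain ⟨Qs, hsH⟩ := h.exists_of_isConj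
    (h.isConj_z_of_mem (F.mem k) (orderOf_two (F.sq k) (F.ne_one k)))
  have hzCs : z ∈ Subgroup.centralizer ({s} : Set G) := mem_C.2 (h.comm_z (F.mem k)).symm
  have hzQs : z ∈ Qs := (hsH.isConj_z_iff hzCs h.order).1
    ((h.isConj_z_of_mem (F.mem k) (orderOf_two (F.sq k) (F.ne_one k))).symm)
  set Ds := Qs ⊓ Subgroup.centralizer ({z} : Set G) with hDs
  have hDs16 : Nat.card ↥Ds = 16 :=
    hsH.card_centralizer_invol hzQs h.zz h.z_ne_one (F.ne_z k).symm
  have hsk : ∀ x : ↥(Subgroup.centralizer ({z} : Set G)), (x : G) * s = s * x →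
      (F.ψ x : Equiv.Perm (Fin 5)) k = k := fun x hx =>
    (F.inj k _ (by
      have := F.act x k
      rwa [show (x : G) * F.a k * (x : G)⁻¹ = F.a k from mul_inv_eq_iff_eq_mul.2 hx] at this)).symm
  have hinter : ∀ w : G, w ∈ Q → w ∈ Qs → w = 1 ∨ w = z ∨ w = s ∨ w = s * z := by
    intro w hw hws
    have hww : w * w = 1 := by
      rcases h.sq_cases hw with e | e
      · exact e
      · rcases hsH.sq_cases hws with e' | e'
        · exact e'
        · exact absurd (e.symm.trans e') (F.ne_z k).symm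
    by_cases h1 : w = 1
    · exact Or.inl h1
    by_cases h2 : w = z
    · exact Or.inr (Or.inl h2)
    obtain ⟨n, hn⟩ := F.all w hw hww h1 h2
    have hcomm : w * s = s * w := hsH.comm_z hws
    obtain rfl : n = k := by
      by_contra hnk
      have hanti := F.anti n k hnk
      rcases hn with e | e <;> rw [e] at hcomm
      · exact h.z_ne_one (mul_eq_left.1 (hanti.symm.trans hcomm))
      · rw [show F.a n * z * s = F.a n * (z * F.a k) by rw [mul_assoc],
          ← h.comm_z (F.mem k), ← mul_assoc, ← mul_assoc] at hcomm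
        exact h.z_ne_one (mul_eq_left.1 (hanti.symm.trans (mul_right_cancel hcomm)))
    exact h.eqv_four (Or.inr hn)
  have hQsz : ∀ {w : G}, w ∈ Ds → w * z = z * w := fun hw => mem_C.1 hw.2
  let θs : ↥Ds →* alternatingGroup (Fin 5) := F.ψ.comp (Subgroup.inclusion inf_le_right)
  have hsurjK : ∀ π : alternatingGroup (Fin 5), π * π = 1 → (π : Equiv.Perm (Fin 5)) k = k →
      ∃ r : ↥Ds, θs r = π := by
    have hker4 : Nat.card θs.ker ≤ 4 := by
      have h4 : ({1, z, s, s * z} : Finset G).card ≤ 4 := Finset.card_le_four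
      refine le_trans ?_ h4
      rw [← Nat.card_eq_finsetCard]
      refine Nat.card_le_card_of_injective
        (fun w => ⟨((w.1 : ↥Ds) : G), ?_⟩) fun a b e => ?_
      · simp only [Finset.mem_insert, Finset.mem_singleton]
        exact hinter _ ((F.ker _).1 w.2) w.1.2.1
      · dsimp only at e
        have e' : ((a.1 : ↥Ds) : G) = b.1 := by simpa using e
        exact Subtype.ext (Subtype.ext e')
    have hmul := Subgroup.card_eq_card_quotient_mul_card_subgroup θs.ker
    rw [hDs16, Nat.card_congr (QuotientGroup.quotientKerEquivRange θs).toEquiv] at hmul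
    have h4r : 4 ≤ Nat.card θs.range := by
      by_contra hlt
      have := Nat.mul_le_mul (show Nat.card θs.range ≤ 3 by omega) hker4
      omega
    set K := Finset.univ.filter fun g : alternatingGroup (Fin 5) =>
      g * g = 1 ∧ (g : Equiv.Perm (Fin 5)) k = k with hK
    have hsub : ∀ g ∈ θs.range, g ∈ K := by
      rintro g ⟨r, rfl⟩
      refine Finset.mem_filter.2 ⟨Finset.mem_univ _, alt_fix_two_sub _ k ?_,
        hsk _ (hsH.comm_z r.2.1)⟩
      rw [← map_pow, show r ^ 4 = 1 from Subtype.ext (by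
        rw [SubmonoidClass.coe_pow, show 4 = 2 * 2 by rfl, pow_mul, pow_two (r : G)]
        rcases hsH.sq_cases r.2.1 with e | e <;> rw [e]
        · exact one_pow 2
        · rw [pow_two, hsH.zz]; rfl), map_one]
    intro π hπ hπk
    have hle : θs.range ≤ θs.range := le_rfl
    let R : Finset (alternatingGroup (Fin 5)) := Finset.univ.filter fun g => g ∈ θs.range
    have hR : Nat.card θs.range = R.card := by
      rw [← Nat.card_eq_finsetCard]
      exact Nat.card_congr (Equiv.subtypeEquivRight fun g => by simp [R])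
    have hRK : R = K := Finset.eq_of_subset_of_card_le
      (fun g hg => hsub g (Finset.mem_filter.1 hg).2) (by rw [alt_klein_card k]; omega)
    have : π ∈ R := hRK ▸ Finset.mem_filter.2 ⟨Finset.mem_univ _, hπ, hπk⟩
    exact (Finset.mem_filter.1 this).2
  obtain ⟨r0, hr0⟩ := hsurjK (F.ψ y) hψ2 p.fk
  have hq0 : ((r0 : G))⁻¹ * t ∈ Q := (F.ker ((Subgroup.inclusion inf_le_right r0)⁻¹ * y)).1 (by
    rw [map_mul, map_inv, show F.ψ (Subgroup.inclusion inf_le_right r0) = F.ψ y from hr0,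
      inv_mul_cancel])
  set q0 := (r0 : G)⁻¹ * t with hq0def
  have hr0s : (r0 : G) * s = s * r0 := hsH.comm_z r0.2.1
  have hq0s : q0 ∈ Subgroup.centralizer ({s} : Set G) :=
    Subgroup.mul_mem _ (Subgroup.inv_mem _ (mem_C.2 hr0s)) (mem_C.2 hts)
  have hcomm : ∀ r : G, r ∈ Ds → ∃ v, (v = 1 ∨ v = z ∨ v = s ∨ v = s * z) ∧
      r * t * r⁻¹ = t * v := by
    intro r hr
    have hrs : r * s = s * r := hsH.comm_z hr.1
    have hc1 : r * q0 * r⁻¹ * q0⁻¹ ∈ Q := Q.mul_mem (h.normal r hr.2 q0 hq0) (Q.inv_mem hq0)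
    have hc1' : r * q0 * r⁻¹ * q0⁻¹ ∈ Qs := by
      rw [show r * q0 * r⁻¹ * q0⁻¹ = r * (q0 * r⁻¹ * q0⁻¹) by group]
      exact Qs.mul_mem hr.1 (hsH.normal q0 hq0s _ (Qs.inv_mem hr.1))
    have hv := hinter _ hc1 hc1'
    set v1 := r * q0 * r⁻¹ * q0⁻¹ with hv1
    have hv1Q : v1 ∈ Q := hc1
    -- `v1` commutes with `q0` up to the four elements
    have hq0c : v1 * q0 = q0 * v1 := by
      rcases hv with e | e | e | e <;> rw [e]
      · rw [one_mul, mul_one]
      · exact (h.comm_z hq0).symm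
      · exact (mem_C.1 hq0s).symm
      · rw [mul_assoc, ← h.comm_z hq0, ← mul_assoc, ← mem_C.1 hq0s, mul_assoc]
    have e : r * t * r⁻¹ = r * (r0 : G) * r⁻¹ * (q0 * v1) := by
      rw [← hq0c, hv1, hq0def]
      group
    rcases hsH.swap hr.1 r0.2.1 with e' | e'
    · refine ⟨v1, hv, e.trans ?_⟩
      rw [e', hq0def]
      group
    · refine ⟨s * v1, ?_, e.trans ?_⟩
      · rcases hv with e2 | e2 | e2 | e2 <;> rw [e2]
        · rw [mul_one]; exact Or.inr (Or.inr (Or.inl rfl))
        · exact Or.inr (Or.inr (Or.inr rfl))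
        · exact Or.inl (F.sq k)
        · rw [← mul_assoc, F.sq, one_mul]; exact Or.inr (Or.inl rfl)
      · rw [e', show (r0 : G) * r * s * r⁻¹ = (r0 : G) * (r * s * r⁻¹) by group,
          mul_inv_eq_iff_eq_mul.2 hrs, mul_assoc, ← mul_assoc s q0, ← mem_C.1 hq0s, hq0def]
        group
  refine ⟨s, F.mem k, F.sq k, F.ne_one k, F.ne_z k, hts, hCQ, hU16, ?_⟩
  intro u hu
  set yu : ↥(Subgroup.centralizer ({z} : Set G)) := ⟨u, hu.2⟩ with hyu
  have hcomu : F.ψ yu * F.ψ y = F.ψ y * F.ψ yu := by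
    rw [← map_mul, ← map_mul]
    exact congrArg F.ψ (Subtype.ext (mem_C.1 hu.1))
  obtain ⟨hu2, huk⟩ := (alt_invol_centralizer _ hψ1 hψ2).2 _ k hcomu p.fk
  obtain ⟨r, hr⟩ := hsurjK _ hu2 huk
  have hqQ : (r : G)⁻¹ * u ∈ Q := (F.ker ((Subgroup.inclusion inf_le_right r)⁻¹ * yu)).1 (by
    rw [map_mul, map_inv, show F.ψ (Subgroup.inclusion inf_le_right r) = F.ψ yu from hr,
      inv_mul_cancel])
  set q := (r : G)⁻¹ * u with hqdef
  have hrs : (r : G) * s = s * r := hsH.comm_z r.2.1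
  suffices hqs : q * s = s * q by
    calc u * s = (r : G) * (q * s) := by rw [hqdef]; group
      _ = (r : G) * s * q := by rw [hqs]; group
      _ = s * u := by rw [hrs, hqdef]; group
  by_contra hne
  obtain ⟨n, hnk, hn⟩ := F.not_comm_cases h hqQ hne
  obtain ⟨v, hv, ev⟩ := hcomm _ (Ds.inv_mem r.2)
  have hqt : q * t * q⁻¹ = t * v := by
    rw [← ev, hqdef]
    calc (r : G)⁻¹ * u * t * ((r : G)⁻¹ * u)⁻¹ = (r : G)⁻¹ * (u * t) * u⁻¹ * (r : G) := by group
      _ = _ := by rw [mem_C.1 hu.1]; group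
  have hv' : (y : G) * q * (y : G)⁻¹ * q⁻¹ = v := by
    show t * q * t⁻¹ * q⁻¹ = v
    rw [hti, show t * q * t * q⁻¹ = t * (q * t * q⁻¹) by group, hqt, ← mul_assoc, htt, one_mul]
  have hvE : Eqv z v 1 ∨ Eqv z v (F.a k) := by
    rcases hv with e | e | e | e
    exacts [Or.inl (Or.inl e), Or.inl (Or.inr (e.trans (one_mul z).symm)), Or.inr (Or.inl e),
      Or.inr (Or.inr e)]
  set n' := (F.ψ y : Equiv.Perm (Fin 5)) n with hn'def
  have hn'n : n' ≠ n := fun e => hnk (alt_invol_fixed_unique _ hψ1 hψ2 n k e p.fk)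
  have hn'k : n' ≠ k := fun e => hnk ((F.ψ y : Equiv.Perm (Fin 5)).injective (e.trans p.fk.symm))
  have hbad : Eqv z v (F.a n' * F.a n) := by
    rw [← hv']
    rcases hn with e | e
    · refine Eqv.mul' h.zz (h.comm_z (F.mem n)) (Eqv.trans' h.zz (Eqv.conj' (mem_C.1 y.2) e)
        (F.act y n)) (Eqv.trans' h.zz (h.eqv_inv_self hqQ) e)
    · have h1 : Eqv z ((y : G) * q * (y : G)⁻¹) (F.a n' * F.a k) := by
        refine Eqv.trans' h.zz (Eqv.conj' (mem_C.1 y.2) e) (Eqv.trans' h.zz (F.act_pair h y k n) ?_)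
        rw [p.fk]
        exact F.pair_swap h hn'k.symm
      have h2 : Eqv z q⁻¹ (F.a k * F.a n) := Eqv.trans' h.zz (h.eqv_inv_self hqQ) e
      have h3 := Eqv.mul' h.zz (h.comm_z (F.pair_mem h k n)) h1 h2
      rwa [show F.a n' * F.a k * (F.a k * F.a n) = F.a n' * (F.a k * F.a k) * F.a n by group,
        F.sq, mul_one] at h3
  rcases hvE with e | e
  · exact F.pair_not_one h hn'n (Eqv.trans' h.zz (Eqv.symm' h.zz hbad) e)
  · exact F.pair_not_single h hn'n k (Eqv.trans' h.zz (Eqv.symm' h.zz hbad) e)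

/-- `C(t) ∩ C(z)` is elementary abelian of order `16` and centralises the involutions of `C_Q(t)`. -/
theorem elementary {t : G} (htH : t ∈ Subgroup.centralizer ({z} : Set G)) (htQ : t ∉ Q)
    (htt : t * t = 1) {u : G}
    (hu : u ∈ Subgroup.centralizer ({t} : Set G) ⊓ Subgroup.centralizer ({z} : Set G)) :
    u * u = 1 := by
  obtain ⟨s, hsQ, hss, hs1, hsz, hts, hCQ, -, hUs⟩ := h.four_structure htH htQ htt
  obtain ⟨F⟩ := h.nonempty_frame
  have hut : u * t = t * u := mem_C.1 hu.1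
  have hntz : ¬ IsConj z t := h.not_isConj_z htH htQ htt
  have huu : u * u = 1 ∨ u * u = z ∨ u * u = s ∨ u * u = s * z := by
    refine hCQ _ ?_ ((show Commute u t from hut).mul_left (show Commute u t from hut)).symm.eq
    have hc : F.ψ ⟨u, hu.2⟩ * F.ψ ⟨t, htH⟩ = F.ψ ⟨t, htH⟩ * F.ψ ⟨u, hu.2⟩ := by
      rw [← map_mul, ← map_mul]
      exact congrArg F.ψ (Subtype.ext hut)
    obtain ⟨k, i, j, l, m, p⟩ := F.exists_pattern h (y := ⟨t, htH⟩)
      (fun e => htQ ((F.ker _).1 e)) (F.psi_sq h (Or.inl htt))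
    obtain ⟨h2, -⟩ := (alt_invol_centralizer _ (fun e => htQ ((F.ker _).1 e))
      (F.psi_sq h (Or.inl htt))).2 _ k hc p.fk
    rw [← map_mul, F.ker] at h2
    exact h2
  have hbase : ∀ {v : G} {Q' : Subgroup G}, HJ v Q' → ¬ IsConj v t →
      t ∈ Subgroup.centralizer ({v} : Set G) → u ∈ Subgroup.centralizer ({v} : Set G) →
      u * u = v → False := by
    intro v Q' hv hnt htv huv e
    by_cases huQ : u ∈ Q'
    · have htQ' : t ∉ Q' := fun hq => hnt (hv.isConj_z_of_mem hq (orderOf_two htt fun e1 =>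
        htQ (e1 ▸ Q.one_mem)))
      obtain ⟨s', hs'Q, hs's, -, -, -, hCQ', -, -⟩ := hv.four_structure htv htQ' htt
      have hu1 : u * u = 1 := by
        rcases hCQ' u huQ hut.symm with e' | e' | e' | e' <;> rw [e']
        · rw [one_mul]
        · exact hv.zz
        · exact hs's
        · rw [show s' * v * (s' * v) = s' * (v * s') * v by group, ← hv.comm_z hs'Q,
            ← mul_assoc, hs's, one_mul, hv.zz]
      exact hv.z_ne_one (e.symm.trans hu1)
    · exact hv.z_ne_one (e.symm.trans (hv.sq_eq_one huv huQ (Or.inr e)))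
  rcases huu with e | e | e | e
  · exact e
  · exact (hbase h hntz htH hu.2 e).elim
  · obtain ⟨Qs, hQs⟩ := h.exists_of_isConj (h.isConj_z_of_mem hsQ (orderOf_two hss hs1))
    exact (hbase hQs (fun hc => hntz ((h.isConj_z_of_mem hsQ (orderOf_two hss hs1)).trans hc))
      (mem_C.2 hts) (mem_C.2 (hUs u hu)) e).elim
  · have hsz2 : orderOf (s * z) = 2 := orderOf_two
      (by rw [show s * z * (s * z) = s * (z * s) * z by group, ← h.comm_z hsQ, ← mul_assoc, hss,
        one_mul, h.zz])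
      (fun e' => hsz ((eq_inv_of_mul_eq_one_left e').trans (inv_eq_of_mul_eq_one_right h.zz)))
    have hc := h.isConj_z_of_mem (Q.mul_mem hsQ h.z_mem) hsz2
    obtain ⟨Qs, hQs⟩ := h.exists_of_isConj hc
    exact (hbase hQs (fun hc' => hntz (hc.trans hc'))
      (mem_C.2 ((show Commute t s from hts).mul_right (show Commute t z from mem_C.1 htH)).eq)
      (mem_C.2 ((show Commute u s from hUs u hu).mul_right (show Commute u z from mem_C.1 hu.2)).eq)
      e).elim

end HJ

end CfsgLib.InvChar.HallJanko
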