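import Cfsg.Prelude.Def_Solvable
import Cfsg.Prelude.Def_Transfer
import Cfsg.Agent.Lib.SectRank.JankoCount
import Cfsg.Agent.Lib.PGroups.Extraspecial
import Cfsg.Agent.Lib.InvChar.HallJanko.A5Facts

/-!
Involution centralisers of Hall–Janko type: the hypothesis and a frame of five singular points
of `Q/⟨z⟩` on which the centraliser induces `A₅`.
-/

set_option autoImplicit false
set_option linter.unusedSectionVars false
set_option linter.style.haveILetI false

open Cfsg
open scoped commutatorElement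

namespace CfsgLib.InvChar.HallJanko

universe u

variable {G : Type u} [Group G]

theorem mem_C {g z : G} : g ∈ Subgroup.centralizer ({z} : Set G) ↔ g * z = z * g :=
  Subgroup.mem_centralizer_singleton_iff

/-- `z` has a centraliser with `Q` extraspecial of order `32`, self-centralising, quotient `A₅`. -/
structure HJ0 (z : G) (Q : Subgroup G) : Prop where
  order : orderOf z = 2
  le : Q ≤ Subgroup.centralizer ({z} : Set G)
  normal : ∀ h ∈ Subgroup.centralizer ({z} : Set G), ∀ q ∈ Q, h * q * h⁻¹ ∈ Q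
  extra : IsExtraspecial 2 Q
  card : Nat.card Q = 32
  cen : ∀ h ∈ Subgroup.centralizer ({z} : Set G), (∀ q ∈ Q, h * q = q * h) → h ∈ Q
  quot : ∃ φ : ↥(Subgroup.centralizer ({z} : Set G)) →* alternatingGroup (Fin 5),
    Function.Surjective φ ∧ ∀ x, φ x = 1 ↔ (x : G) ∈ Q

/-- Furthermore `z` is not weakly closed in `Q` and there are at least two classes of
involutions. -/
structure HJ (z : G) (Q : Subgroup G) : Prop extends HJ0 z Q where
  nwc : ∃ g : G, g * z * g⁻¹ ∈ Q ∧ g * z * g⁻¹ ≠ z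
  two : ∃ x y : G, orderOf x = 2 ∧ orderOf y = 2 ∧ ¬ IsConj x y

instance {z : G} {Q : Subgroup G} : Coe (HJ z Q) (HJ0 z Q) := ⟨HJ.toHJ0⟩

/-- Equality modulo `⟨z⟩`. -/
def Eqv (z x y : G) : Prop := x = y ∨ x = y * z

namespace HJ0

variable {z : G} {Q : Subgroup G} (h : HJ0 z Q)
include h

theorem zz : z * z = 1 := by
  have := pow_orderOf_eq_one z
  rwa [h.order, pow_two] at this

theorem z_ne_one : z ≠ 1 := fun e => by
  have := h.order
  rw [e, orderOf_one] at this
  omega

theorem comm_z {x : G} (hx : x ∈ Q) : x * z = z * x := mem_C.1 (h.le hx)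

theorem z_mem : z ∈ Q := h.cen z (mem_C.2 rfl) fun _ hq => (h.comm_z hq).symm

theorem eq_one_or_z {q : G} (hq : q ∈ Q) (hc : ∀ x ∈ Q, q * x = x * q) : q = 1 ∨ q = z := by
  obtain ⟨w, hw, huniq⟩ :=
    (Nat.card_eq_two_iff' (1 : Subgroup.center ↥Q)).1 h.extra.2
  have hmem : ∀ {y : G} (hy : y ∈ Q), (∀ x ∈ Q, y * x = x * y) →
      (⟨y, hy⟩ : ↥Q) ∈ Subgroup.center ↥Q :=
    fun hy hc' => Subgroup.mem_center_iff.2 fun x => Subtype.ext (hc' x x.2).symm
  by_cases h1 : q = 1
  · exact Or.inl h1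
  have e1 := huniq ⟨_, hmem hq hc⟩
    fun e => h1 (congrArg (fun u : Subgroup.center ↥Q => ((u : ↥Q) : G)) e)
  have e2 := huniq ⟨_, hmem h.z_mem fun x hx => (h.comm_z hx).symm⟩
    fun e => h.z_ne_one (congrArg (fun u : Subgroup.center ↥Q => ((u : ↥Q) : G)) e)
  exact Or.inr (congrArg (fun u : Subgroup.center ↥Q => ((u : ↥Q) : G)) (e1.trans e2.symm))

theorem center_cases {w : ↥Q} (hw : w ∈ Subgroup.center ↥Q) : (w : G) = 1 ∨ (w : G) = z :=
  h.eq_one_or_z w.2 fun x hx => (congrArg Subtype.val (Subgroup.mem_center_iff.1 hw ⟨x, hx⟩)).symm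

theorem sq_cases [Finite G] {q : G} (hq : q ∈ Q) : q * q = 1 ∨ q * q = z := by
  haveI := Fact.mk Nat.prime_two
  have := h.center_cases (PGroups.IsExtraspecial.pow_mem_center h.extra ⟨q, hq⟩)
  simpa [pow_two] using this

theorem swap [Finite G] {x y : G} (hx : x ∈ Q) (hy : y ∈ Q) :
    x * y = y * x ∨ x * y = y * x * z := by
  have hc := h.center_cases (PGroups.IsExtraspecial.commutator_mem_center h.extra ⟨x, hx⟩ ⟨y, hy⟩)
  rw [show ((⁅(⟨x, hx⟩ : ↥Q), ⟨y, hy⟩⁆ : ↥Q) : G) = x * y * x⁻¹ * y⁻¹ from rfl] at hc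
  rcases hc with e | e
  · exact Or.inl (calc x * y = x * y * x⁻¹ * y⁻¹ * (y * x) := by group
      _ = y * x := by rw [e, one_mul])
  · exact Or.inr (calc x * y = x * y * x⁻¹ * y⁻¹ * (y * x) := by group
      _ = y * x * z := by rw [e, ← h.comm_z (Q.mul_mem hy hx)])

end HJ0

namespace Eqv

variable {z x y w x' y' : G}

theorem rfl' (z x : G) : Eqv z x x := Or.inl rfl

theorem symm' (hz : z * z = 1) (h : Eqv z x y) : Eqv z y x := by
  rcases h with h | h
  · exact Or.inl h.symm
  · exact Or.inr (by rw [h, mul_assoc, hz, mul_one])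

theorem trans' (hz : z * z = 1) (h1 : Eqv z x y) (h2 : Eqv z y w) : Eqv z x w := by
  rcases h1 with e1 | e1 <;> rcases h2 with e2 | e2
  · exact Or.inl (e1.trans e2)
  · exact Or.inr (by rw [e1, e2])
  · exact Or.inr (by rw [e1, e2])
  · exact Or.inl (by rw [e1, e2, mul_assoc, hz, mul_one])

theorem mul' (hz : z * z = 1) (hy' : y' * z = z * y') (h1 : Eqv z x y) (h2 : Eqv z x' y') :
    Eqv z (x * x') (y * y') := by
  rcases h1 with e1 | e1 <;> rcases h2 with e2 | e2
  · exact Or.inl (by rw [e1, e2])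
  · exact Or.inr (by rw [e1, e2, mul_assoc])
  · exact Or.inr (by rw [e1, e2, mul_assoc, ← hy', mul_assoc])
  · exact Or.inl (by
      rw [e1, e2, show y * z * (y' * z) = y * (z * y') * z by group, ← hy',
        show y * (y' * z) * z = y * y' * (z * z) by group, hz, mul_one])

theorem conj' (hc : w * z = z * w) (h : Eqv z x y) : Eqv z (w * x * w⁻¹) (w * y * w⁻¹) := by
  rcases h with e | e
  · exact Or.inl (by rw [e])
  · refine Or.inr ?_
    rw [e, show w * (y * z) * w⁻¹ = w * y * (z * w⁻¹) by group,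
      show z * w⁻¹ = w⁻¹ * z from by rw [eq_inv_mul_iff_mul_eq, ← mul_assoc, hc, mul_inv_cancel_right]]
    group

theorem mem' {Q : Subgroup G} (hzQ : z ∈ Q) (h : Eqv z x y) (hy : y ∈ Q) : x ∈ Q := by
  rcases h with e | e <;> rw [e]
  exacts [hy, Q.mul_mem hy hzQ]

end Eqv

/-- Five singular points of `Q/⟨z⟩` and the action of `C(z)` on them. -/
structure Frame (z : G) (Q : Subgroup G) where
  a : Fin 5 → G
  ψ : ↥(Subgroup.centralizer ({z} : Set G)) →* alternatingGroup (Fin 5)
  mem : ∀ i, a i ∈ Q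
  sq : ∀ i, a i * a i = 1
  ne_one : ∀ i, a i ≠ 1
  ne_z : ∀ i, a i ≠ z
  inj : ∀ i j, Eqv z (a i) (a j) → i = j
  all : ∀ q ∈ Q, q * q = 1 → q ≠ 1 → q ≠ z → ∃ i, Eqv z q (a i)
  surj : Function.Surjective ψ
  ker : ∀ x, ψ x = 1 ↔ (x : G) ∈ Q
  act : ∀ (x : ↥(Subgroup.centralizer ({z} : Set G))) (i : Fin 5),
    Eqv z ((x : G) * a i * (x : G)⁻¹) (a ((ψ x : Equiv.Perm (Fin 5)) i))
  anti : ∀ i j, i ≠ j → a i * a j = a j * a i * z

theorem commute_of_pow {x y : G} {n : ℕ} (hco : n.Coprime (orderOf x))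
    (h : Commute (x ^ n) y) : Commute x y := by
  obtain ⟨m, hm⟩ := exists_pow_eq_self_of_coprime (x := x) hco
  rw [← hm]
  exact h.pow_left m

section

variable [Finite G]

theorem HJ0.nonempty_frame {z : G} {Q : Subgroup G} (h : HJ0 z Q) : Nonempty (Frame z Q) := by
  classical
  haveI := Fact.mk Nat.prime_two
  haveI : Fact (Nat.Prime 5) := ⟨Nat.prime_five⟩
  set H := Subgroup.centralizer ({z} : Set G) with hH
  obtain ⟨φ, hφs, hφk⟩ := h.quot
  have h60 : 60 ∣ Nat.card ↥H := by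
    rw [← alt_card]
    exact Subgroup.card_dvd_of_surjective φ hφs
  obtain ⟨f, hf⟩ := exists_prime_orderOf_dvd_card' (G := ↥H) 5 ((by norm_num : 5 ∣ 60).trans h60)
  have hfG : orderOf (f : G) = 5 := by rw [Subgroup.orderOf_coe, hf]
  have hfz : (f : G) * z = z * f := mem_C.1 f.2
  have hfQ : (f : G) ∉ Q := fun hq => by
    have h1 := Subgroup.orderOf_dvd_natCard Q hq
    rw [hfG, h.card] at h1
    norm_num at h1
  -- `f` fixes only `⟨z⟩` in `Q`
  let P := Subgroup.zpowers f
  have hP : IsPGroup 5 ↥P := IsPGroup.of_card (n := 1) (by rw [Nat.card_zpowers, hf, pow_one])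
  letI : MulAction ↥P ↥Q :=
    { smul := fun g q => ⟨((g : ↥H) : G) * q * ((g : ↥H) : G)⁻¹, h.normal _ (g : ↥H).2 q q.2⟩
      one_smul := fun q => Subtype.ext (show (1 : G) * q * (1 : G)⁻¹ = q by group)
      mul_smul := fun g g' q => Subtype.ext (by
        show ((g : ↥H) : G) * ((g' : ↥H) : G) * q * (((g : ↥H) : G) * ((g' : ↥H) : G))⁻¹ =
          ((g : ↥H) : G) * (((g' : ↥H) : G) * q * ((g' : ↥H) : G)⁻¹) * ((g : ↥H) : G)⁻¹
        group) }
  have hsmul : ∀ (g : ↥P) (q : ↥Q),
      ((g • q : ↥Q) : G) = ((g : ↥H) : G) * q * ((g : ↥H) : G)⁻¹ := fun _ _ => rfl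
  have hfix : ∀ q : ↥Q, q ∈ MulAction.fixedPoints ↥P ↥Q ↔
      (q : G) ∈ Q ⊓ Subgroup.centralizer ({(f : G)} : Set G) := by
    intro q
    rw [MulAction.mem_fixedPoints, Subgroup.mem_inf, mem_C]
    constructor
    · intro hq
      have := congrArg Subtype.val (hq ⟨f, Subgroup.mem_zpowers f⟩)
      rw [hsmul] at this
      exact ⟨q.2, (mul_inv_eq_iff_eq_mul.1 this).symm⟩
    · rintro ⟨-, hq⟩ g
      obtain ⟨m, hm⟩ := Subgroup.mem_zpowers_iff.1 g.2
      refine Subtype.ext ?_
      rw [hsmul, ← hm, Subgroup.coe_zpow, ← ((show Commute (q : G) f from hq).zpow_right m).eq,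
        mul_inv_cancel_right]
  have hCf : ∀ q ∈ Q, (f : G) * q = q * f → q = 1 ∨ q = z := by
    have e1 : Nat.card (MulAction.fixedPoints ↥P ↥Q) =
        Nat.card ↥(Q ⊓ Subgroup.centralizer ({(f : G)} : Set G)) :=
      Nat.card_congr ⟨fun q => ⟨q.1, (hfix q.1).1 q.2⟩, fun q => ⟨⟨q, q.2.1⟩, (hfix _).2 q.2⟩,
        fun _ => rfl, fun _ => rfl⟩
    have e2 := hP.card_modEq_card_fixedPoints ↥Q
    rw [h.card, e1] at e2
    have e3 : Nat.card ↥(Q ⊓ Subgroup.centralizer ({(f : G)} : Set G)) ∣ 2 ^ 5 :=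
      (Subgroup.card_dvd_of_le inf_le_left).trans (by rw [h.card]; norm_num)
    obtain ⟨k, hk, e4⟩ := (Nat.dvd_prime_pow Nat.prime_two).1 e3
    rw [e4] at e2
    have hk' : k = 1 ∨ k = 5 := by
      interval_cases k <;> simp_all (config := { decide := true }) [Nat.ModEq]
    rcases hk' with rfl | rfl
    · intro q hq hfq
      by_cases h1 : q = 1
      · exact Or.inl h1
      obtain ⟨w, hw, huniq⟩ := (Nat.card_eq_two_iff'
        (1 : ↥(Q ⊓ Subgroup.centralizer ({(f : G)} : Set G)))).1 (e4.trans (pow_one 2))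
      exact Or.inr (congrArg Subtype.val
        ((huniq ⟨q, hq, mem_C.2 hfq.symm⟩ fun e => h1 (congrArg Subtype.val e)).trans
          (huniq ⟨z, h.z_mem, mem_C.2 hfz.symm⟩ fun e => h.z_ne_one (congrArg Subtype.val e)).symm))
    · exfalso
      have hle : Q ≤ Subgroup.centralizer ({(f : G)} : Set G) :=
        (Subgroup.eq_of_le_of_card_ge inf_le_left (by rw [h.card, e4]; norm_num)).symm.le.trans inf_le_right
      exact hfQ (h.cen _ f.2 fun q hq => (mem_C.1 (hle hq)).symm)
  -- ten noncentral involutions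
  let S := {q : ↥Q // (q : G) * q = 1 ∧ (q : G) ≠ 1 ∧ (q : G) ≠ z}
  have hzQ : (⟨z, h.z_mem⟩ : ↥Q) ^ 2 = 1 := Subtype.ext (by simpa [pow_two] using h.zz)
  have hsplit : Minimal.ExtraspecialTwo.numSq ↥Q = Nat.card S + 2 := by
    let T := {q : ↥Q // q ^ 2 = 1}
    have e : {q : T // ¬((q.1 : G) = 1 ∨ (q.1 : G) = z)} ≃ S :=
      { toFun := fun q => ⟨q.1.1, by simpa [pow_two] using congrArg Subtype.val q.1.2,
          fun e => q.2 (Or.inl e), fun e => q.2 (Or.inr e)⟩
        invFun := fun q => ⟨⟨q.1, Subtype.ext (by simpa [pow_two] using q.2.1)⟩,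
          fun e => e.elim q.2.2.1 q.2.2.2⟩
        left_inv := fun _ => rfl
        right_inv := fun _ => rfl }
    have e2 : Nat.card {q : T // (q.1 : G) = 1 ∨ (q.1 : G) = z} = 2 := by
      rw [Nat.card_eq_two_iff]
      refine ⟨⟨⟨1, one_pow 2⟩, Or.inl rfl⟩, ⟨⟨⟨z, h.z_mem⟩, hzQ⟩, Or.inr rfl⟩,
        fun e => h.z_ne_one (congrArg (fun q => ((q.1.1 : ↥Q) : G)) e).symm,
        Set.eq_univ_of_forall fun q => ?_⟩
      rcases q.2 with hq | hq
      · exact Or.inl (Subtype.ext (Subtype.ext (Subtype.ext hq)))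
      · exact Or.inr (Subtype.ext (Subtype.ext (Subtype.ext hq)))
    show Nat.card T = _
    rw [← Nat.card_congr (Equiv.sumCompl fun q : T => (q.1 : G) = 1 ∨ (q.1 : G) = z),
      Nat.card_sum, e2, Nat.card_congr e, add_comm]
  letI : MulAction ↥P S :=
    { smul := fun g q => ⟨g • q.1, by
        have hz' : ((g : ↥H) : G) * z = z * ((g : ↥H) : G) := mem_C.1 (g : ↥H).2
        rw [hsmul]
        refine ⟨?_, ?_, ?_⟩
        · rw [show ((g : ↥H) : G) * q.1 * ((g : ↥H) : G)⁻¹ * (((g : ↥H) : G) * q.1 * ((g : ↥H) : G)⁻¹) =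
            ((g : ↥H) : G) * ((q.1 : G) * q.1) * ((g : ↥H) : G)⁻¹ by group, q.2.1, mul_one,
            mul_inv_cancel]
        · exact fun e => q.2.2.1 (conj_eq_one_iff.1 e)
        · intro e
          rw [mul_inv_eq_iff_eq_mul, ← hz'] at e
          exact q.2.2.2 (mul_left_cancel e)⟩
      one_smul := fun q => Subtype.ext (one_smul _ _)
      mul_smul := fun g g' q => Subtype.ext (mul_smul _ _ _) }
  have hS10 : Nat.card S = 10 := by
    have e1 := hP.card_modEq_card_fixedPoints S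
    have e2 : Nat.card (MulAction.fixedPoints ↥P S) = 0 := by
      haveI : IsEmpty (MulAction.fixedPoints ↥P S) := ⟨fun q => by
        have := (hfix q.1.1).1 fun g => congrArg Subtype.val (q.2 g)
        rcases hCf _ this.1 (mem_C.1 this.2).symm with e | e
        exacts [q.1.2.2.1 e, q.1.2.2.2 e]⟩
      exact Nat.card_of_isEmpty
    rw [e2] at e1
    obtain ⟨m, hm, hc, hm'⟩ := Minimal.ExtraspecialTwo.card_and_numSq h.extra
    rw [h.card] at hc
    have hm2 : m = 2 := by
      have := Nat.pow_right_injective (le_refl 2) (show 2 ^ 5 = 2 ^ (2 * m + 1) by simpa using hc)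
      omega
    subst hm2
    rw [Nat.ModEq] at e1
    rw [hsplit] at hm'
    omega
  obtain ⟨a0⟩ : Nonempty S := (Nat.card_pos_iff.1 (by rw [hS10]; norm_num)).1
  let c : ℕ → G := fun n => (f : G) ^ n * ((a0.1 : ↥Q) : G) * ((f : G) ^ n)⁻¹
  have hcS : ∀ n, ∃ s : S, ((s.1 : ↥Q) : G) = c n := fun n =>
    ⟨(⟨f ^ n, Subgroup.pow_mem _ (Subgroup.mem_zpowers f) n⟩ : ↥P) • a0, by
      show ((((⟨f ^ n, _⟩ : ↥P) • a0.1 : ↥Q)) : G) = _
      rw [hsmul]
      simp [c]⟩
  have hcQ : ∀ n, c n ∈ Q := fun n => by obtain ⟨s, hs⟩ := hcS n; exact hs ▸ s.1.2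
  have hcs : ∀ n, c n * c n = 1 := fun n => by obtain ⟨s, hs⟩ := hcS n; exact hs ▸ s.2.1
  have hc1 : ∀ n, c n ≠ 1 := fun n => by obtain ⟨s, hs⟩ := hcS n; exact hs ▸ s.2.2.1
  have hcz : ∀ n, c n ≠ z := fun n => by obtain ⟨s, hs⟩ := hcS n; exact hs ▸ s.2.2.2
  have hcadd : ∀ m n, c (m + n) = (f : G) ^ m * c n * ((f : G) ^ m)⁻¹ := fun m n => by
    simp only [c, pow_add]
    group
  have hc0 : c 0 = ((a0.1 : ↥Q) : G) := by simp [c]
  have hmove : ∀ k : ℕ, 0 < k → k < 5 → ¬ Eqv z (c k) (c 0) := by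
    intro k h0 h5 he
    have hcom : Commute (f : G) z := hfz
    have h2 : c (2 * k) = c 0 := by
      have e1 : Eqv z (c (2 * k)) (c k) := by
        have := Eqv.conj' (hcom.pow_left k).eq he
        rwa [← hcadd, ← hcadd, add_zero, ← two_mul] at this
      rcases he with e | e
      · rw [two_mul, hcadd, e, ← hcadd, add_zero, e]
      · rw [two_mul, hcadd, e,
          show (f : G) ^ k * (c 0 * z) * ((f : G) ^ k)⁻¹ =
            (f : G) ^ k * c 0 * (z * ((f : G) ^ k)⁻¹) by group,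
          ← ((hcom.pow_left k).inv_left).eq, ← mul_assoc, ← hcadd, add_zero, e, mul_assoc, h.zz,
          mul_one]
    rw [hc0] at h2
    have h3 : Commute ((f : G) ^ (2 * k)) ((a0.1 : ↥Q) : G) := mul_inv_eq_iff_eq_mul.1 h2
    have h4 := commute_of_pow (x := (f : G)) (n := 2 * k) (by
      rw [hfG]; interval_cases k <;> norm_num) h3
    rcases hCf _ a0.1.2 h4.eq with e | e
    exacts [a0.2.2.1 e, a0.2.2.2 e]
  have hinj : ∀ i j : Fin 5, Eqv z (c i.val) (c j.val) → i = j := by
    have key : ∀ i j : Fin 5, i < j → ¬ Eqv z (c j.val) (c i.val) := by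
      intro i j hij he
      have hij' : i.val < j.val := hij
      have hw : ((f : G) ^ i.val)⁻¹ * z = z * ((f : G) ^ i.val)⁻¹ :=
        (((show Commute (f : G) z from hfz).pow_left i.val).inv_left).eq
      have := Eqv.conj' (w := ((f : G) ^ i.val)⁻¹) hw he
      rw [show j.val = i.val + (j.val - i.val) by omega, hcadd] at this
      rw [show c i.val = c (i.val + 0) from rfl, hcadd i.val 0] at this
      refine hmove (j.val - i.val) (by omega) (by omega) ?_
      convert this using 1 <;> group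
    intro i j he
    rcases lt_trichotomy i j with hlt | hlt | hlt
    · exact absurd (Eqv.symm' h.zz he) (key i j hlt)
    · exact hlt
    · exact absurd he (key j i hlt)
  have hall : ∀ q ∈ Q, q * q = 1 → q ≠ 1 → q ≠ z → ∃ i : Fin 5, Eqv z q (c i.val) := by
    let F : Fin 5 × Bool → S := fun p => ⟨⟨if p.2 then c p.1.val * z else c p.1.val, by
        split_ifs
        exacts [Q.mul_mem (hcQ _) h.z_mem, hcQ _]⟩, by
      show (if p.2 then c p.1.val * z else c p.1.val) * (if p.2 then c p.1.val * z else c p.1.val) = 1 ∧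
        (if p.2 then c p.1.val * z else c p.1.val) ≠ 1 ∧ (if p.2 then c p.1.val * z else c p.1.val) ≠ z
      split_ifs
      · refine ⟨?_, fun e => hcz p.1.val ?_, fun e => hc1 p.1.val (mul_eq_right.1 e)⟩
        · rw [show c p.1.val * z * (c p.1.val * z) = c p.1.val * (z * c p.1.val) * z by group,
            ← h.comm_z (hcQ _), ← mul_assoc, hcs, one_mul, h.zz]
        · rw [eq_inv_of_mul_eq_one_left e, inv_eq_of_mul_eq_one_right h.zz]
      · exact ⟨hcs _, hc1 _, hcz _⟩⟩
    have hF : Function.Injective F := by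
      rintro ⟨i, b⟩ ⟨j, b'⟩ e
      have e' : (if b then c i.val * z else c i.val) = (if b' then c j.val * z else c j.val) :=
        congrArg (fun s : S => ((s.1 : ↥Q) : G)) e
      obtain rfl : i = j := hinj i j (by
        cases b <;> cases b' <;> simp only [Bool.false_eq_true, ↓reduceIte] at e'
        · exact Or.inl e'
        · exact Or.inr e'
        · exact Or.inr (by rw [← e', mul_assoc, h.zz, mul_one])
        · exact Or.inl (mul_right_cancel e'))
      cases b <;> cases b' <;> simp only [Bool.false_eq_true, ↓reduceIte] at e'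
      · rfl
      · exact absurd e' fun e => h.z_ne_one (mul_eq_left.1 e.symm)
      · exact absurd e' fun e => h.z_ne_one (mul_eq_left.1 e)
      · rfl
    have hbij := (Nat.bijective_iff_injective_and_card F).2
      ⟨hF, by rw [hS10, Nat.card_eq_fintype_card, Fintype.card_prod]; rfl⟩
    intro q hq h1 h2 h3
    obtain ⟨⟨i, b⟩, hib⟩ := hbij.2 ⟨⟨q, hq⟩, h1, h2, h3⟩
    have e : (if b then c i.val * z else c i.val) = q :=
      congrArg (fun s : S => ((s.1 : ↥Q) : G)) hib
    refine ⟨i, ?_⟩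
    cases b
    · exact Or.inl (by simpa using e.symm)
    · exact Or.inr (by simpa using e.symm)
  -- the action
  have himg : ∀ (x : ↥H) (i : Fin 5), ∃ j : Fin 5, Eqv z ((x : G) * c i.val * (x : G)⁻¹) (c j.val) := by
    intro x i
    refine hall _ (h.normal _ x.2 _ (hcQ _)) ?_ ?_ ?_
    · rw [show (x : G) * c i.val * (x : G)⁻¹ * ((x : G) * c i.val * (x : G)⁻¹) =
        (x : G) * (c i.val * c i.val) * (x : G)⁻¹ by group, hcs, mul_one, mul_inv_cancel]
    · exact fun e => hc1 i.val (conj_eq_one_iff.1 e)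
    · intro e
      rw [mul_inv_eq_iff_eq_mul, ← mem_C.1 x.2] at e
      exact hcz i.val (mul_left_cancel e)
  choose g hg using himg
  have guniq : ∀ {x : ↥H} {i j : Fin 5}, Eqv z ((x : G) * c i.val * (x : G)⁻¹) (c j.val) → g x i = j :=
    fun he => hinj _ _ (Eqv.trans' h.zz (Eqv.symm' h.zz (hg _ _)) he)
  have gmul : ∀ (x y : ↥H) (i : Fin 5), g (x * y) i = g x (g y i) := fun x y i => guniq (by
    have := Eqv.trans' h.zz (Eqv.conj' (mem_C.1 x.2) (hg y i)) (hg x (g y i))
    convert this using 1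
    simp [mul_assoc])
  have gone : ∀ i, g 1 i = i := fun i => guniq (Or.inl (by simp))
  let ψ₀ : ↥H →* Equiv.Perm (Fin 5) :=
    { toFun := fun x => ⟨g x, g x⁻¹, fun i => by rw [← gmul, inv_mul_cancel, gone],
        fun i => by rw [← gmul, mul_inv_cancel, gone]⟩
      map_one' := Equiv.ext gone
      map_mul' := fun x y => Equiv.ext (gmul x y) }
  have hQker : φ.ker ≤ ψ₀.ker := by
    intro x hx
    have hxQ : (x : G) ∈ Q := (hφk x).1 hx
    refine Equiv.ext fun i => guniq ?_
    rcases h.swap hxQ (hcQ i.val) with e | e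
    · exact Or.inl (by rw [e, mul_inv_cancel_right]; rfl)
    · refine Or.inr ?_
      show _ = c i.val * z
      rw [e, show c i.val * (x : G) * z * (x : G)⁻¹ = c i.val * ((x : G) * z) * (x : G)⁻¹ by group,
        h.comm_z hxQ, ← mul_assoc, mul_inv_cancel_right]
  have hker : ψ₀.ker = φ.ker := by
    haveI : IsSimpleGroup (alternatingGroup (Fin 5)) := alternatingGroup.isSimpleGroup (by simp)
    have hn : (ψ₀.ker.map φ).Normal := Subgroup.Normal.map inferInstance φ hφs
    rcases hn.eq_bot_or_eq_top with e | e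
    · exact le_antisymm (fun x hx => by
        have : φ x ∈ ψ₀.ker.map φ := ⟨x, hx, rfl⟩
        rwa [e, Subgroup.mem_bot] at this) hQker
    · exfalso
      obtain ⟨k, hk, hkf⟩ := (show φ f ∈ ψ₀.ker.map φ by rw [e]; trivial)
      have hfk : f ∈ ψ₀.ker := by
        have : k⁻¹ * f ∈ φ.ker := by rw [MonoidHom.mem_ker, map_mul, map_inv, hkf, inv_mul_cancel]
        simpa using ψ₀.ker.mul_mem hk (hQker this)
      refine hmove 1 one_pos (by norm_num) ?_
      have e' : g f 0 = 0 := Equiv.congr_fun (MonoidHom.mem_ker.1 hfk) 0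
      have hgf := hg f 0
      rw [e'] at hgf
      rw [show c 1 = c (1 + 0) from rfl, hcadd, pow_one]
      exact hgf
  have hrange : ψ₀.range = alternatingGroup (Fin 5) := by
    apply Equiv.Perm.eq_alternatingGroup_of_index_eq_two
    have e1 : Nat.card ψ₀.range = 60 := by
      rw [← Nat.card_congr (QuotientGroup.quotientKerEquivRange ψ₀).toEquiv, ← Subgroup.index,
        hker, Subgroup.index, Nat.card_congr (QuotientGroup.quotientKerEquivRange φ).toEquiv,
        MonoidHom.range_eq_top.2 hφs, Subgroup.card_top, alt_card]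
    have e2 := ψ₀.range.card_mul_index
    rw [e1, Nat.card_perm, Nat.card_fin] at e2
    simp [Nat.factorial] at e2
    omega
  have hmemA : ∀ x, ψ₀ x ∈ alternatingGroup (Fin 5) := fun x => hrange ▸ ⟨x, rfl⟩
  have hcomm : ∀ i j : Fin 5, i ≠ j → c i.val * c j.val = c j.val * c i.val * z := by
    intro i j hij
    refine (h.swap (hcQ _) (hcQ _)).resolve_left fun e => hij (hinj i j ?_)
    have h12 : Nat.card {x : ↥Q // x * x = 1} = 12 := by
      have : Minimal.ExtraspecialTwo.numSq ↥Q = 12 := by rw [hsplit, hS10]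
      rw [← this]
      exact Nat.card_congr (Equiv.subtypeEquivRight fun x => by rw [pow_two])
    have hnc : ∀ n, (⟨c n, hcQ n⟩ : ↥Q) ∉ Subgroup.center ↥Q := fun n hn =>
      (h.center_cases hn).elim (hc1 n) (hcz n)
    have hc' := h.center_cases (CfsgLib.SectRank.Janko.mul_mem_center_of_commute h.extra h.card h12
      (a := ⟨c i.val, hcQ _⟩) (b := ⟨c j.val, hcQ _⟩) (Subtype.ext (hcs _)) (Subtype.ext (hcs _))
      (hnc _) (hnc _) (Subtype.ext e))
    rcases hc' with e' | e'
    · exact Or.inl ((eq_inv_of_mul_eq_one_left e').trans (inv_eq_of_mul_eq_one_right (hcs _)))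
    · refine Or.inr ?_
      have e'' : c i.val * c j.val = z := e'
      calc c i.val = c i.val * c j.val * c j.val := by rw [mul_assoc, hcs, mul_one]
        _ = c j.val * z := by rw [e'', ← h.comm_z (hcQ _)]
  refine ⟨{
    a := fun i => c i.val
    ψ := ψ₀.codRestrict (alternatingGroup (Fin 5)) hmemA
    mem := fun i => hcQ _
    sq := fun i => hcs _
    ne_one := fun i => hc1 _
    ne_z := fun i => hcz _
    inj := hinj
    all := hall
    surj := fun π => by
      obtain ⟨x, hx⟩ : (π : Equiv.Perm (Fin 5)) ∈ ψ₀.range := hrange.symm ▸ π.2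
      exact ⟨x, Subtype.ext hx⟩
    ker := fun x => by
      rw [← hφk x, ← MonoidHom.mem_ker, ← MonoidHom.mem_ker, MonoidHom.ker_codRestrict, hker]
    act := fun x i => hg x i
    anti := hcomm }⟩

end

end CfsgLib.InvChar.HallJanko
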