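import Cfsg.Agent.Lib.InvChar.HallJanko.Local
import Mathlib.GroupTheory.Nilpotent

/-!
Fusion of involutions: those conjugate to `z` in `C(z)` are exactly those of `Q`.
-/

set_option autoImplicit false
set_option linter.unusedSectionVars false
set_option linter.style.haveILetI false

open Cfsg

namespace CfsgLib.InvChar.HallJanko

universe u

variable {G : Type u} [Group G] [Finite G]

theorem mul_self_of_orderOf {x : G} (h : orderOf x = 2) : x * x = 1 := by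
  have := pow_orderOf_eq_one x
  rwa [h, pow_two] at this

theorem orderOf_two {x : G} (h : x * x = 1) (h1 : x ≠ 1) : orderOf x = 2 :=
  orderOf_eq_prime (by rwa [pow_two]) h1

theorem Eqv.left {z x y w : G} (e : Eqv z x y) : Eqv z (w * x) (w * y) := by
  rcases e with e | e
  · exact Or.inl (by rw [e])
  · exact Or.inr (by rw [e, mul_assoc])

namespace HJ0

variable {z : G} {Q : Subgroup G} (h : HJ0 z Q)
include h

/-- The involutions of a coset of `Q` containing one, and their conjugacy under `Q`. -/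
theorem conj_of_coset {x : G} (hxH : x ∈ Subgroup.centralizer ({z} : Set G)) (hxQ : x ∉ Q)
    (hx : x * x = 1) {q : G} (hq : q ∈ Q) (hsq : x * q * (x * q) = 1 ∨ x * q * (x * q) = z) :
    x * q * (x * q) = 1 ∧ ∃ g ∈ Q, g * x * g⁻¹ = x * q := by
  obtain ⟨F⟩ := h.nonempty_frame
  set y : ↥(Subgroup.centralizer ({z} : Set G)) := ⟨x, hxH⟩ with hy
  have hy2 : (y : G) * y = 1 ∨ (y : G) * y = z := Or.inl hx
  obtain ⟨k, i, j, l, m, p⟩ := F.exists_pattern h (y := y)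
    (fun e => hxQ ((F.ker y).1 e)) (F.psi_sq h hy2)
  have hxi : x⁻¹ = x := inv_eq_of_mul_eq_one_right hx
  have hxq : x * q * x⁻¹ * q = x * q * (x * q) := by rw [hxi]; group
  have hfix : Eqv z (x * q * x⁻¹) q := by
    refine Eqv.trans' h.zz ?_ (h.eqv_inv_self hq)
    rcases hsq with e | e
    · exact Or.inl (eq_inv_of_mul_eq_one_left (hxq.trans e))
    · refine Or.inr ?_
      rw [eq_mul_inv_iff_mul_eq.2 (hxq.trans e)]
      exact (h.comm_z (Q.inv_mem hq)).symm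
  have key : ∀ g : G, g * x * g⁻¹ = x * (x * g * x⁻¹ * g⁻¹) := fun g => by
    rw [hxi, show x * (x * g * x * g⁻¹) = x * x * g * x * g⁻¹ by group, hx, one_mul]
  have hb := F.neg_pair h hy2 p.ij p.fi
  have hbz : F.a i * F.a j * x * (F.a i * F.a j)⁻¹ = x * z := by
    rw [key, show x * (F.a i * F.a j) * x⁻¹ = F.a i * F.a j * z from hb,
      h.comm_z (F.pair_mem h i j), mul_inv_cancel_right]
  have hclass : ∃ g ∈ Q, Eqv z (g * x * g⁻¹) (x * q) := by
    have ha : ∀ n n' : Fin 5, (F.ψ y : Equiv.Perm (Fin 5)) n = n' →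
        Eqv z (F.a n * x * (F.a n)⁻¹) (x * (F.a n' * F.a n)) := fun n n' hn => by
      rw [key]
      refine Eqv.left ?_
      rw [inv_eq_of_mul_eq_one_right (F.sq n)]
      have := F.act y n
      rw [hn] at this
      exact Eqv.mul' h.zz (h.comm_z (F.mem n)) this (Eqv.rfl' z _)
    rcases F.class_fixed h p hq hfix with e | e | e | e
    · exact ⟨1, Q.one_mem, by
        simpa using (Eqv.left (Eqv.symm' h.zz e) : Eqv z (x * 1) (x * q))⟩
    · refine ⟨F.a i * F.a l, F.pair_mem h i l, ?_⟩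
      rw [key]
      refine Eqv.left ?_
      have h1 : Eqv z (x * (F.a i * F.a l) * x⁻¹) (F.a j * F.a m) := by
        have := F.act_pair h y i l
        rwa [p.fi, p.fl] at this
      have h2 := Eqv.mul' h.zz (h.comm_z (F.pair_mem h i l)) h1
        (h.eqv_inv_self (F.pair_mem h i l))
      refine Eqv.trans' h.zz h2 (Eqv.trans' h.zz ?_ (Eqv.symm' h.zz e))
      exact F.four h p.kj p.km p.ki p.kl p.jm p.ij.symm p.jl p.im.symm p.lm.symm p.il
    · exact ⟨F.a i, F.mem i, Eqv.trans' h.zz (ha i j p.fi)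
        (Eqv.left (Eqv.trans' h.zz (F.pair_swap h p.ij.symm) (Eqv.symm' h.zz e)))⟩
    · exact ⟨F.a l, F.mem l, Eqv.trans' h.zz (ha l m p.fl)
        (Eqv.left (Eqv.trans' h.zz (F.pair_swap h p.lm.symm) (Eqv.symm' h.zz e)))⟩
  have main : ∃ g ∈ Q, g * x * g⁻¹ = x * q := by
    obtain ⟨g, hg, e | e⟩ := hclass
    · exact ⟨g, hg, e⟩
    · refine ⟨g * (F.a i * F.a j), Q.mul_mem hg (F.pair_mem h i j), ?_⟩
      rw [show g * (F.a i * F.a j) * x * (g * (F.a i * F.a j))⁻¹ =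
        g * (F.a i * F.a j * x * (F.a i * F.a j)⁻¹) * g⁻¹ by group, hbz,
        show g * (x * z) * g⁻¹ = g * x * (z * g⁻¹) by group, ← h.comm_z (Q.inv_mem hg),
        ← mul_assoc, e, mul_assoc (x * q), h.zz, mul_one]
  refine ⟨?_, main⟩
  obtain ⟨g, -, e⟩ := main
  rw [← e, show g * x * g⁻¹ * (g * x * g⁻¹) = g * (x * x) * g⁻¹ by group, hx, mul_one,
    mul_inv_cancel]

theorem conj_mem_C {g x : G} (hg : g ∈ Subgroup.centralizer ({z} : Set G))
    (hx : x ∈ Subgroup.centralizer ({z} : Set G)) :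
    g * x * g⁻¹ ∈ Subgroup.centralizer ({z} : Set G) :=
  Subgroup.mul_mem _ (Subgroup.mul_mem _ hg hx) (Subgroup.inv_mem _ hg)

/-- Two involutions outside `Q` in `C(z)` are conjugate in `C(z)`. -/
theorem exists_conj_C {x x' : G} (hx : x ∈ Subgroup.centralizer ({z} : Set G)) (hxQ : x ∉ Q)
    (hxx : x * x = 1) (hx' : x' ∈ Subgroup.centralizer ({z} : Set G)) (hxQ' : x' ∉ Q)
    (hxx' : x' * x' = 1) :
    ∃ g ∈ Subgroup.centralizer ({z} : Set G), g * x * g⁻¹ = x' := by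
  obtain ⟨F⟩ := h.nonempty_frame
  obtain ⟨π, hπ⟩ := alt_invol_conj (F.ψ ⟨x, hx⟩) (F.ψ ⟨x', hx'⟩)
    (fun e => hxQ ((F.ker _).1 e)) (F.psi_sq h (Or.inl hxx))
    (fun e => hxQ' ((F.ker _).1 e)) (F.psi_sq h (Or.inl hxx'))
  obtain ⟨c, hc⟩ := F.surj π
  set x₁ : G := (c : G) * x * (c : G)⁻¹ with hx1
  have hx1H := h.conj_mem_C c.2 hx
  have hx11 : x₁ * x₁ = 1 := by
    rw [hx1, show (c : G) * x * (c : G)⁻¹ * ((c : G) * x * (c : G)⁻¹) =
      (c : G) * (x * x) * (c : G)⁻¹ by group, hxx, mul_one, mul_inv_cancel]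
  have hψ : F.ψ ⟨x₁, hx1H⟩ = F.ψ ⟨x', hx'⟩ := by
    rw [show (⟨x₁, hx1H⟩ : ↥(Subgroup.centralizer ({z} : Set G))) = c * ⟨x, hx⟩ * c⁻¹ from
      Subtype.ext rfl, map_mul, map_mul, map_inv, hc, hπ]
  have hx1Q : x₁ ∉ Q := fun hq => hxQ' ((F.ker _).1 (hψ.symm.trans ((F.ker _).2 hq)))
  have hq : x₁⁻¹ * x' ∈ Q := (F.ker (⟨x₁, hx1H⟩⁻¹ * ⟨x', hx'⟩)).1 (by
    rw [map_mul, map_inv, hψ, inv_mul_cancel])
  obtain ⟨-, g, hg, e⟩ := h.conj_of_coset hx1H hx1Q hx11 hq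
    (Or.inl (by rw [mul_inv_cancel_left, hxx']))
  refine ⟨g * c, Subgroup.mul_mem _ (h.le hg) c.2, ?_⟩
  rw [mul_inv_cancel_left] at e
  rw [← e]
  group

theorem exists_conj_mem_C {x : G} (hx : orderOf x = 2) :
    ∃ g : G, g * x * g⁻¹ ∈ Subgroup.centralizer ({z} : Set G) := by
  classical
  haveI := Fact.mk Nat.prime_two
  set H := Subgroup.centralizer ({z} : Set G) with hH
  have hQp : IsPGroup 2 ↥(Q.subgroupOf H) :=
    IsPGroup.of_equiv (IsPGroup.of_card (n := 5) h.card) (Subgroup.subgroupOfEquivOfLe h.le).symm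
  obtain ⟨T, hT⟩ := hQp.exists_le_sylow
  set T' := (T : Subgroup ↥H).map H.subtype with hT'
  have hTp : IsPGroup 2 ↥T' := T.isPGroup'.map _
  obtain ⟨S, hS⟩ := hTp.exists_le_sylow
  have hQT : Q ≤ T' := fun q hq => ⟨⟨q, h.le hq⟩, hT hq, rfl⟩
  have hinter : ∀ y ∈ (S : Subgroup G), y ∈ H → y ∈ T' := by
    intro y hy hyH
    have hp : IsPGroup 2 ↥((S : Subgroup G).subgroupOf H) :=
      S.isPGroup'.comap_subtype
    have hle : (T : Subgroup ↥H) ≤ (S : Subgroup G).subgroupOf H := fun u hu => hS ⟨u, hu, rfl⟩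
    have := T.is_maximal' hp hle
    exact ⟨⟨y, hyH⟩, this ▸ (show (⟨y, hyH⟩ : ↥H) ∈ (S : Subgroup G).subgroupOf H from hy), rfl⟩
  have hSH : (S : Subgroup G) ≤ T' := by
    by_contra hne
    haveI : Group.IsNilpotent ↥(S : Subgroup G) := S.isPGroup'.isNilpotent
    have hlt : T'.subgroupOf (S : Subgroup G) < ⊤ := lt_top_iff_ne_top.2 fun e =>
      hne (Subgroup.subgroupOf_eq_top.1 e)
    obtain ⟨y, hy, hyT⟩ := SetLike.exists_of_lt (Group.normalizerCondition_of_isNilpotent _ hlt)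
    rw [Subgroup.mem_normalizer_iff] at hy
    have hzT : z ∈ T' := hQT h.z_mem
    have hw : (y : G) * z * (y : G)⁻¹ ∈ T' := (hy ⟨z, hS hzT⟩).1 hzT
    have hTH : T' ≤ H := Subgroup.map_subtype_le _
    have hcomm : ∀ u ∈ T', (y : G) * z * (y : G)⁻¹ * u = u * ((y : G) * z * (y : G)⁻¹) := by
      intro u hu
      have h1 : (y : G)⁻¹ * u * y ∈ T' := by
        refine (hy ⟨(y : G)⁻¹ * u * y,
          Subgroup.mul_mem _ (Subgroup.mul_mem _ (Subgroup.inv_mem _ y.2) (hS hu)) y.2⟩).2 ?_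
        show (y : G) * ((y : G)⁻¹ * u * y) * (y : G)⁻¹ ∈ T'
        rwa [show (y : G) * ((y : G)⁻¹ * u * y) * (y : G)⁻¹ = u by group]
      have h2 : ((y : G)⁻¹ * u * y) * z = z * ((y : G)⁻¹ * u * y) := mem_C.1 (hTH h1)
      calc (y : G) * z * (y : G)⁻¹ * u = (y : G) * (z * ((y : G)⁻¹ * u * y)) * (y : G)⁻¹ := by group
        _ = (y : G) * (((y : G)⁻¹ * u * y) * z) * (y : G)⁻¹ := by rw [h2]
        _ = u * ((y : G) * z * (y : G)⁻¹) := by group
    have hwQ := h.cen _ (hTH hw) fun q hq => hcomm q (hQT hq)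
    rcases h.eq_one_or_z hwQ (fun q hq => hcomm q (hQT hq)) with e | e
    · exact h.z_ne_one (conj_eq_one_iff.1 e)
    · exact hyT (hinter _ y.2 (mem_C.2 (mul_inv_eq_iff_eq_mul.1 e)))
  have hxp : IsPGroup 2 ↥(Subgroup.zpowers x) :=
    IsPGroup.of_card (n := 1) (by rw [Nat.card_zpowers, hx, pow_one])
  obtain ⟨S₁, hS₁⟩ := hxp.exists_le_sylow
  obtain ⟨g, hg⟩ := MulAction.exists_smul_eq G S₁ S
  refine ⟨g, Subgroup.map_subtype_le _ (hSH ?_)⟩
  rw [← hg, Sylow.coe_subgroup_smul]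
  exact Subgroup.smul_mem_pointwise_smul _ _ _ (hS₁ (Subgroup.mem_zpowers x))

end HJ0

namespace HJ

variable {z : G} {Q : Subgroup G} (h : HJ z Q)
include h

theorem isConj_z_of_mem {q : G} (hq : q ∈ Q) (hq2 : orderOf q = 2) : IsConj z q := by
  obtain ⟨F⟩ := h.nonempty_frame
  have hne1 : q ≠ 1 := fun e => by rw [e, orderOf_one] at hq2; omega
  by_cases hqz : q = z
  · exact hqz ▸ IsConj.refl z
  obtain ⟨g, hg, hgne⟩ := h.nwc
  have hw : IsConj z (g * z * g⁻¹) := isConj_iff.2 ⟨g, rfl⟩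
  obtain ⟨i₀, hi₀⟩ := F.all _ hg
    (by rw [show g * z * g⁻¹ * (g * z * g⁻¹) = g * (z * z) * g⁻¹ by group, h.zz, mul_one,
      mul_inv_cancel])
    (fun e => h.z_ne_one (conj_eq_one_iff.1 e)) hgne
  obtain ⟨n, hn⟩ := F.all q hq (mul_self_of_orderOf hq2) hne1 hqz
  obtain ⟨π, hπ⟩ := alt_transitive i₀ n
  obtain ⟨c, hc⟩ := F.surj π
  have h1 := F.act c i₀
  rw [hc, hπ] at h1
  have h2 : Eqv z ((c : G) * (g * z * g⁻¹) * (c : G)⁻¹) q :=
    Eqv.trans' h.zz (Eqv.conj' (mem_C.1 c.2) hi₀) (Eqv.trans' h.zz h1 (Eqv.symm' h.zz hn))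
  have hw2 : IsConj z ((c : G) * (g * z * g⁻¹) * (c : G)⁻¹) :=
    hw.trans (isConj_iff.2 ⟨(c : G), rfl⟩)
  rcases h2 with e | e
  · exact e ▸ hw2
  obtain ⟨m, hm⟩ : ∃ m : Fin 5, m ≠ n := exists_ne n
  refine (e ▸ hw2 : IsConj z (q * z)).trans (isConj_iff.2 ⟨F.a m, ?_⟩)
  have hflip : F.a m * q * (F.a m)⁻¹ = q * z := by
    rw [mul_inv_eq_iff_eq_mul]
    rcases hn with rfl | rfl
    · rw [mul_assoc, ← h.comm_z (F.mem m), ← mul_assoc, F.anti m n hm]
    · rw [← mul_assoc, F.anti m n hm, mul_assoc (F.a n * F.a m), h.zz, mul_one,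
        mul_assoc (F.a n) z z, h.zz, mul_one]
  rw [show F.a m * (q * z) * (F.a m)⁻¹ = F.a m * q * (z * (F.a m)⁻¹) by group,
    ← h.comm_z (Q.inv_mem (F.mem m)), ← mul_assoc, hflip, mul_assoc, h.zz, mul_one]

theorem exists_invol_outside :
    ∃ x ∈ Subgroup.centralizer ({z} : Set G), x ∉ Q ∧ orderOf x = 2 := by
  by_contra hcon
  push Not at hcon
  obtain ⟨x, y, hx, hy, hxy⟩ := h.two
  have all : ∀ w : G, orderOf w = 2 → IsConj z w := by
    intro w hw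
    obtain ⟨g, hg⟩ := h.exists_conj_mem_C hw
    have hw' : orderOf (g * w * g⁻¹) = 2 := by
      rw [← hw]; exact orderOf_injective (MulAut.conj g).toMonoidHom (MulAut.conj g).injective w
    have hQ' : g * w * g⁻¹ ∈ Q := by
      by_contra hq
      exact hcon _ hg hq hw'
    exact (h.isConj_z_of_mem hQ' hw').trans (isConj_iff.2 ⟨g⁻¹, by group⟩)
  exact hxy ((all x hx).symm.trans (all y hy))

theorem not_isConj_z {x : G} (hx : x ∈ Subgroup.centralizer ({z} : Set G)) (hxQ : x ∉ Q)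
    (hxx : x * x = 1) : ¬ IsConj z x := by
  intro hc
  obtain ⟨a, b, ha, hb, hab⟩ := h.two
  have all : ∀ w : G, orderOf w = 2 → IsConj z w := by
    intro w hw
    obtain ⟨g, hg⟩ := h.exists_conj_mem_C hw
    have hw' : orderOf (g * w * g⁻¹) = 2 := by
      rw [← hw]; exact orderOf_injective (MulAut.conj g).toMonoidHom (MulAut.conj g).injective w
    refine IsConj.trans ?_ (isConj_iff.2 ⟨g⁻¹, by group⟩ : IsConj (g * w * g⁻¹) w)
    by_cases hQ' : g * w * g⁻¹ ∈ Q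
    · exact h.isConj_z_of_mem hQ' hw'
    · obtain ⟨c, -, e⟩ := h.exists_conj_C hx hxQ hxx hg hQ' (mul_self_of_orderOf hw')
      exact hc.trans (isConj_iff.2 ⟨c, e⟩)
  exact hab ((all a ha).symm.trans (all b hb))

/-- Fusion of involutions of `C(z)`. -/
theorem isConj_z_iff {x : G} (hx : x ∈ Subgroup.centralizer ({z} : Set G)) (hx2 : orderOf x = 2) :
    IsConj z x ↔ x ∈ Q :=
  ⟨fun hc => by_contra fun hq => h.not_isConj_z hx hq (mul_self_of_orderOf hx2) hc,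
    fun hq => h.isConj_z_of_mem hq hx2⟩

theorem isConj_or {x t : G} (ht : t ∈ Subgroup.centralizer ({z} : Set G)) (htQ : t ∉ Q)
    (htt : t * t = 1) (hx : orderOf x = 2) : IsConj z x ∨ IsConj t x := by
  obtain ⟨g, hg⟩ := h.exists_conj_mem_C hx
  have hx' : orderOf (g * x * g⁻¹) = 2 := by
    rw [← hx]; exact orderOf_injective (MulAut.conj g).toMonoidHom (MulAut.conj g).injective x
  have hback : IsConj (g * x * g⁻¹) x := isConj_iff.2 ⟨g⁻¹, by group⟩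
  by_cases hq : g * x * g⁻¹ ∈ Q
  · exact Or.inl ((h.isConj_z_of_mem hq hx').trans hback)
  · obtain ⟨c, -, e⟩ := h.exists_conj_C ht htQ htt hg hq (mul_self_of_orderOf hx')
    exact Or.inr (IsConj.trans (isConj_iff.2 ⟨c, e⟩) hback)

/-- An element of `C(z)` outside `Q` squaring into `⟨z⟩` is an involution. -/
theorem sq_eq_one {y : G} (hy : y ∈ Subgroup.centralizer ({z} : Set G)) (hyQ : y ∉ Q)
    (hsq : y * y = 1 ∨ y * y = z) : y * y = 1 := by
  obtain ⟨F⟩ := h.nonempty_frame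
  obtain ⟨x, hx, hxQ, hx2⟩ := h.exists_invol_outside
  have hxx := mul_self_of_orderOf hx2
  obtain ⟨π, hπ⟩ := alt_invol_conj (F.ψ ⟨x, hx⟩) (F.ψ ⟨y, hy⟩) (fun e => hxQ ((F.ker _).1 e))
    (F.psi_sq h (Or.inl hxx)) (fun e => hyQ ((F.ker _).1 e)) (F.psi_sq h hsq)
  obtain ⟨c, hc⟩ := F.surj π
  set x₁ : G := (c : G) * x * (c : G)⁻¹ with hx1
  have hx1H := h.conj_mem_C c.2 hx
  have hψ : F.ψ ⟨x₁, hx1H⟩ = F.ψ ⟨y, hy⟩ := by
    rw [show (⟨x₁, hx1H⟩ : ↥(Subgroup.centralizer ({z} : Set G))) = c * ⟨x, hx⟩ * c⁻¹ from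
      Subtype.ext rfl, map_mul, map_mul, map_inv, hc, hπ]
  have hq : x₁⁻¹ * y ∈ Q := (F.ker (⟨x₁, hx1H⟩⁻¹ * ⟨y, hy⟩)).1 (by
    rw [map_mul, map_inv, hψ, inv_mul_cancel])
  have hx1Q : x₁ ∉ Q := fun hq' => hyQ ((F.ker _).1 (hψ.symm.trans ((F.ker _).2 hq')))
  have := (h.conj_of_coset hx1H hx1Q (by
    rw [show (c : G) * x * (c : G)⁻¹ * ((c : G) * x * (c : G)⁻¹) =
      (c : G) * (x * x) * (c : G)⁻¹ by group, hxx, mul_one, mul_inv_cancel]) hq
    (by rwa [mul_inv_cancel_left])).1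
  rwa [mul_inv_cancel_left] at this

end HJ

end CfsgLib.InvChar.HallJanko
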