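import Cfsg.Agent.Lib.InvChar.HallJanko.Frame

/-!
Structure of `Q` modulo `⟨z⟩` and of involutions outside `Q` in a centraliser of Hall–Janko type.
-/

set_option autoImplicit false
set_option linter.unusedSectionVars false
set_option linter.style.haveILetI false

open Cfsg

namespace CfsgLib.InvChar.HallJanko

universe u

variable {G : Type u} [Group G]

/-- Involution `y` of `C(z)/Q` with its cycle structure on the five points. -/
structure Pattern {z : G} {Q : Subgroup G} (F : Frame z Q)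
    (y : ↥(Subgroup.centralizer ({z} : Set G))) (k i j l m : Fin 5) : Prop where
  fk : (F.ψ y : Equiv.Perm (Fin 5)) k = k
  fi : (F.ψ y : Equiv.Perm (Fin 5)) i = j
  fj : (F.ψ y : Equiv.Perm (Fin 5)) j = i
  fl : (F.ψ y : Equiv.Perm (Fin 5)) l = m
  fm : (F.ψ y : Equiv.Perm (Fin 5)) m = l
  ki : k ≠ i
  kj : k ≠ j
  kl : k ≠ l
  km : k ≠ m
  ij : i ≠ j
  il : i ≠ l
  im : i ≠ m
  jl : j ≠ l
  jm : j ≠ m
  lm : l ≠ m

theorem HJ0.sq_eqv {z : G} {Q : Subgroup G} (h : HJ0 z Q) {x y : G} (hy : y ∈ Q) (e : Eqv z x y) :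
    x * x = y * y := by
  rcases e with e | e <;> subst e
  · rfl
  · rw [show y * z * (y * z) = y * (z * y) * z by group, ← h.comm_z hy, mul_assoc, mul_assoc,
      h.zz, mul_one]

theorem HJ0.eqv_inv_self [Finite G] {z : G} {Q : Subgroup G} (h : HJ0 z Q) {q : G} (hq : q ∈ Q) :
    Eqv z q⁻¹ q := by
  rcases h.sq_cases hq with e | e
  · exact Or.inl (inv_eq_of_mul_eq_one_right e)
  · exact Or.inr (inv_eq_of_mul_eq_one_right (by rw [← mul_assoc, e, h.zz]))

theorem Eqv.cancel {z x y w : G} (e : Eqv z (w * x) (w * y)) : Eqv z x y := by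
  rcases e with e | e
  · exact Or.inl (mul_left_cancel e)
  · exact Or.inr (mul_left_cancel (e.trans (mul_assoc _ _ _)))

namespace Frame

variable {z : G} {Q : Subgroup G}

section

variable (F : Frame z Q) (h : HJ0 z Q)
include h

theorem pair_mem (i j : Fin 5) : F.a i * F.a j ∈ Q := Q.mul_mem (F.mem i) (F.mem j)

theorem pair_sq {i j : Fin 5} (hij : i ≠ j) : F.a i * F.a j * (F.a i * F.a j) = z :=
  calc F.a i * F.a j * (F.a i * F.a j) = F.a i * (F.a j * F.a i) * F.a j := by group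
    _ = F.a i * F.a i * F.a j * (z * F.a j) := by rw [F.anti j i hij.symm]; group
    _ = z := by
      rw [← h.comm_z (F.mem j), F.sq, one_mul, ← mul_assoc, F.sq, one_mul]

theorem pair_not_single {i j : Fin 5} (hij : i ≠ j) (n : Fin 5) :
    ¬ Eqv z (F.a i * F.a j) (F.a n) := fun e => h.z_ne_one (by
  rw [← F.pair_sq h hij, h.sq_eqv (F.mem n) e, F.sq])

theorem pair_not_one {i j : Fin 5} (hij : i ≠ j) : ¬ Eqv z (F.a i * F.a j) 1 := fun e =>
  h.z_ne_one (by rw [← F.pair_sq h hij, h.sq_eqv Q.one_mem e, one_mul])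

theorem single_not_one (i : Fin 5) : ¬ Eqv z (F.a i) 1 := fun e => by
  rcases e with e | e
  · exact F.ne_one i e
  · exact F.ne_z i (by rw [e, one_mul])

theorem pair_swap {i j : Fin 5} (hij : i ≠ j) : Eqv z (F.a i * F.a j) (F.a j * F.a i) :=
  Or.inr (F.anti i j hij)

theorem pair_comm_single {i j n : Fin 5} (hni : n ≠ i) (hnj : n ≠ j) :
    Commute (F.a i * F.a j) (F.a n) :=
  calc F.a i * F.a j * F.a n = F.a i * (F.a j * F.a n) := by group
    _ = F.a i * (F.a n * (F.a j * z)) := by rw [F.anti j n hnj.symm]; group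
    _ = F.a i * F.a n * (F.a j * z) := by group
    _ = F.a n * F.a i * (z * F.a j) * z := by rw [F.anti i n hni.symm]; group
    _ = F.a n * (F.a i * F.a j) := by
      rw [← h.comm_z (F.mem j), show F.a n * F.a i * (F.a j * z) * z =
        F.a n * (F.a i * F.a j) * (z * z) by group, h.zz, mul_one]

variable [Finite G]

theorem four {k i j l m : Fin 5} (ki : k ≠ i) (kj : k ≠ j) (kl : k ≠ l) (km : k ≠ m)
    (ij : i ≠ j) (il : i ≠ l) (im : i ≠ m) (jl : j ≠ l) (jm : j ≠ m) (lm : l ≠ m) :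
    Eqv z (F.a i * F.a j * (F.a l * F.a m)) (F.a k) := by
  have hcomm : Commute (F.a i * F.a j) (F.a l * F.a m) :=
    (F.pair_comm_single h il.symm jl.symm).mul_right (F.pair_comm_single h im.symm jm.symm)
  have hq2 : F.a i * F.a j * (F.a l * F.a m) * (F.a i * F.a j * (F.a l * F.a m)) = 1 := by
    rw [mul_assoc (F.a i * F.a j) (F.a l * F.a m), ← mul_assoc (F.a l * F.a m), ← hcomm.eq,
      mul_assoc (F.a i * F.a j), F.pair_sq h lm, ← mul_assoc, F.pair_sq h ij, h.zz]
  have hmem := Q.mul_mem (F.pair_mem h i j) (F.pair_mem h l m)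
  have key : ∀ {i j l m : Fin 5}, i ≠ j → l ≠ m →
      ¬ Eqv z (F.a i * F.a j * (F.a l * F.a m)) (F.a i) := by
    intro i j l m _ hlm e
    have e' : Eqv z (F.a j * (F.a l * F.a m)) 1 :=
      Eqv.cancel (w := F.a i) (by rwa [mul_one, ← mul_assoc (F.a i)])
    have e2 : Eqv z (F.a l * F.a m) (F.a j * 1) := Eqv.cancel (w := F.a j) (by rwa [mul_one, F.sq])
    exact F.pair_not_single h hlm j (by rwa [mul_one] at e2)
  have hne : ¬ Eqv z (F.a i * F.a j * (F.a l * F.a m)) 1 := by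
    intro e
    have e' : Eqv z (F.a l * F.a m) (F.a i * F.a j) :=
      Eqv.cancel (w := F.a i * F.a j)
        (Eqv.trans' h.zz e (Eqv.symm' h.zz (Or.inr (by rw [F.pair_sq h ij, one_mul]))))
    have e2 : Eqv z (F.a m) (F.a l * (F.a i * F.a j)) :=
      Eqv.cancel (w := F.a l)
        (by rwa [← mul_assoc (F.a l) (F.a l), F.sq, one_mul])
    have e3 := h.sq_eqv (Q.mul_mem (F.mem l) (F.pair_mem h i j)) e2
    rw [F.sq, show F.a l * (F.a i * F.a j) * (F.a l * (F.a i * F.a j)) =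
        F.a l * (F.a i * F.a j * F.a l) * (F.a i * F.a j) by group,
      (F.pair_comm_single h il.symm jl.symm).eq,
      show F.a l * (F.a l * (F.a i * F.a j)) * (F.a i * F.a j) =
        F.a l * F.a l * (F.a i * F.a j * (F.a i * F.a j)) by group, F.sq, one_mul,
      F.pair_sq h ij] at e3
    exact h.z_ne_one e3.symm
  obtain ⟨n, hn⟩ := F.all _ hmem hq2 (fun e => hne (Or.inl e))
    (fun e => hne (Or.inr (e.trans (one_mul z).symm)))
  have hn' : n = k ∨ n = i ∨ n = j ∨ n = l ∨ n = m := by omega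
  rcases hn' with rfl | rfl | rfl | rfl | rfl
  · exact hn
  · exact absurd hn (key ij lm)
  · refine absurd (Eqv.trans' h.zz (Eqv.mul' h.zz (h.comm_z (F.pair_mem h l m))
      (F.pair_swap h ij.symm) (Eqv.rfl' z _)) hn) (key ij.symm lm)
  · rw [hcomm.eq] at hn
    exact absurd hn (key lm ij)
  · rw [hcomm.eq] at hn
    refine absurd (Eqv.trans' h.zz (Eqv.mul' h.zz (h.comm_z (F.pair_mem h i j))
      (F.pair_swap h lm.symm) (Eqv.rfl' z _)) hn) (key lm.symm ij)

theorem pair_inj {i j l m : Fin 5} (hij : i ≠ j) (hlm : l ≠ m)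
    (e : Eqv z (F.a i * F.a j) (F.a l * F.a m)) : (i = l ∧ j = m) ∨ (i = m ∧ j = l) := by
  by_cases hil : i = l
  · subst hil
    exact Or.inl ⟨rfl, F.inj _ _ (Eqv.cancel e)⟩
  by_cases him : i = m
  · subst him
    exact Or.inr ⟨rfl, F.inj _ _ (Eqv.cancel
      (Eqv.trans' h.zz e (F.pair_swap h hlm)))⟩
  exfalso
  by_cases hjl : j = l
  · subst hjl
    exact him (F.inj _ _ (Eqv.cancel
      (Eqv.trans' h.zz (F.pair_swap h hij.symm) e)))
  by_cases hjm : j = m
  · subst hjm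
    exact hil (F.inj _ _ (Eqv.cancel
      (Eqv.trans' h.zz (Eqv.trans' h.zz (F.pair_swap h hij.symm) e) (F.pair_swap h hlm))))
  obtain ⟨k, hk⟩ := (by decide : ∀ i j l m : Fin 5, ∃ k : Fin 5, k ≠ i ∧ k ≠ j ∧ k ≠ l ∧ k ≠ m) i j l m
  refine F.single_not_one h k (Eqv.trans' h.zz
    (Eqv.symm' h.zz (F.four h hk.1 hk.2.1 hk.2.2.1 hk.2.2.2 hij hil him hjl hjm hlm)) ?_)
  exact Eqv.trans' h.zz (Eqv.mul' h.zz (h.comm_z (F.pair_mem h l m)) e (Eqv.rfl' z _))
    (Or.inr (by rw [F.pair_sq h hlm, one_mul]))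

theorem cases_mem {q : G} (hq : q ∈ Q) : Eqv z q 1 ∨ (∃ i, Eqv z q (F.a i)) ∨
    ∃ i j, i ≠ j ∧ Eqv z q (F.a i * F.a j) := by
  classical
  by_contra hcon
  push Not at hcon
  obtain ⟨h1, h2, h3⟩ := hcon
  let J := (Option (Fin 5)) ⊕ {p : Fin 5 × Fin 5 // p.1 < p.2}
  let rep : J → G := fun c => match c with
    | .inl none => 1
    | .inl (some i) => F.a i
    | .inr p => F.a p.1.1 * F.a p.1.2
  have hrep : ∀ c, rep c ∈ Q := by
    rintro ((_ | i) | p)
    exacts [Q.one_mem, F.mem i, F.pair_mem h _ _]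
  have hrinj : ∀ c d, Eqv z (rep c) (rep d) → c = d := by
    rintro ((_ | i) | ⟨⟨i, j⟩, hij⟩) ((_ | l) | ⟨⟨l, m⟩, hlm⟩) e
    · rfl
    · exact absurd (Eqv.symm' h.zz e) (F.single_not_one h l)
    · exact absurd (Eqv.symm' h.zz e) (F.pair_not_one h (ne_of_lt hlm))
    · exact absurd e (F.single_not_one h i)
    · rw [F.inj i l e]
    · exact absurd (Eqv.symm' h.zz e) (F.pair_not_single h (ne_of_lt hlm) i)
    · exact absurd e (F.pair_not_one h (ne_of_lt hij))
    · exact absurd e (F.pair_not_single h (ne_of_lt hij) l)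
    · rcases F.pair_inj h (ne_of_lt hij) (ne_of_lt hlm) e with ⟨rfl, rfl⟩ | ⟨rfl, rfl⟩
      · rfl
      · exact absurd hij (not_lt.2 (le_of_lt hlm))
  let Φ : J × Bool → ↥Q := fun p => ⟨if p.2 then rep p.1 * z else rep p.1, by
    split_ifs
    exacts [Q.mul_mem (hrep _) h.z_mem, hrep _]⟩
  have hΦ : Function.Injective Φ := by
    rintro ⟨c, b⟩ ⟨d, b'⟩ e
    have e' : (if b then rep c * z else rep c) = (if b' then rep d * z else rep d) :=
      congrArg Subtype.val e
    obtain rfl : c = d := hrinj c d (by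
      cases b <;> cases b' <;> simp only [Bool.false_eq_true, ↓reduceIte] at e'
      · exact Or.inl e'
      · exact Or.inr e'
      · exact Or.inr (by rw [← e', mul_assoc, h.zz, mul_one])
      · exact Or.inl (mul_right_cancel e'))
    cases b <;> cases b' <;> simp only [Bool.false_eq_true, ↓reduceIte] at e'
    · rfl
    · exact absurd e' fun e => h.z_ne_one (mul_eq_left.1 e.symm)
    · exact absurd e' fun e => h.z_ne_one (mul_eq_left.1 e)
    · rfl
  obtain ⟨⟨c, b⟩, hcb⟩ := ((Nat.bijective_iff_injective_and_card Φ).2 ⟨hΦ, by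
    rw [h.card, Nat.card_eq_fintype_card]; rfl⟩).2 ⟨q, hq⟩
  have e : Eqv z q (rep c) := by
    have e' : (if b then rep c * z else rep c) = q := congrArg Subtype.val hcb
    cases b
    · exact Or.inl (by simpa using e'.symm)
    · exact Or.inr (by simpa using e'.symm)
  rcases c with (_ | i) | ⟨⟨i, j⟩, hij⟩
  exacts [h1 e, h2 i e, h3 i j (ne_of_lt hij) e]

theorem conj_one {x : G} (hx : x ∈ Subgroup.centralizer ({z} : Set G)) {q r : G}
    (e : Eqv z q r) : Eqv z (x * q * x⁻¹) (x * r * x⁻¹) := Eqv.conj' (mem_C.1 hx) e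

/-- The action on a pair. -/
theorem act_pair (x : ↥(Subgroup.centralizer ({z} : Set G))) (i j : Fin 5) :
    Eqv z ((x : G) * (F.a i * F.a j) * (x : G)⁻¹)
      (F.a ((F.ψ x : Equiv.Perm (Fin 5)) i) * F.a ((F.ψ x : Equiv.Perm (Fin 5)) j)) := by
  have := Eqv.mul' h.zz (h.comm_z (F.mem _)) (F.act x i) (F.act x j)
  rwa [show (x : G) * F.a i * (x : G)⁻¹ * ((x : G) * F.a j * (x : G)⁻¹) =
    (x : G) * (F.a i * F.a j) * (x : G)⁻¹ by group] at this

/-- `q` centralises `a k` when its class avoids `k` in pairs. -/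
theorem not_comm_cases {q : G} (hq : q ∈ Q) {k : Fin 5} (hqk : q * F.a k ≠ F.a k * q) :
    ∃ n, n ≠ k ∧ (Eqv z q (F.a n) ∨ Eqv z q (F.a k * F.a n)) := by
  have base : ∀ {r : G}, r ∈ Q → Eqv z q r → r * F.a k = F.a k * r → False := by
    intro r hr e hc
    rcases e with e | e
    · exact hqk (e ▸ hc)
    · refine hqk ?_
      rw [e, mul_assoc, ← h.comm_z (F.mem k), ← mul_assoc, hc, mul_assoc]
  rcases F.cases_mem h hq with e | ⟨i, e⟩ | ⟨i, j, hij, e⟩
  · exact (base Q.one_mem e (by rw [one_mul, mul_one])).elim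
  · by_cases hik : i = k
    · subst hik
      exact (base (F.mem i) e rfl).elim
    · exact ⟨i, hik, Or.inl e⟩
  · by_cases hik : i = k
    · subst hik
      exact ⟨j, hij.symm, Or.inr e⟩
    · by_cases hjk : j = k
      · subst hjk
        exact ⟨i, hik, Or.inr (Eqv.trans' h.zz e (F.pair_swap h hij))⟩
      · exact (base (F.pair_mem h i j) e (F.pair_comm_single h (Ne.symm hik) (Ne.symm hjk)).eq).elim

theorem card_centralizer_point (k : Fin 5) :
    Nat.card ↥(Q ⊓ Subgroup.centralizer ({F.a k} : Set G)) = 16 := by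
  haveI := Fact.mk Nat.prime_two
  have hnc : (⟨F.a k, F.mem k⟩ : ↥Q) ∉ Subgroup.center ↥Q := fun hc =>
    (h.center_cases hc).elim (F.ne_one k) (F.ne_z k)
  have hidx := PGroups.IsExtraspecial.index_centralizer h.extra hnc
  have e := (Subgroup.centralizer ({(⟨F.a k, F.mem k⟩ : ↥Q)} : Set ↥Q)).card_mul_index
  rw [hidx, h.card] at e
  have e2 : Nat.card ↥(Subgroup.centralizer ({(⟨F.a k, F.mem k⟩ : ↥Q)} : Set ↥Q)) =
      Nat.card ↥(Q ⊓ Subgroup.centralizer ({F.a k} : Set G)) :=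
    Nat.card_congr ⟨fun q => ⟨q.1.1, q.1.2, mem_C.2 (congrArg Subtype.val (mem_C.1 q.2))⟩,
      fun q => ⟨⟨q.1, q.2.1⟩, mem_C.2 (Subtype.ext (mem_C.1 q.2.2))⟩, fun _ => rfl, fun _ => rfl⟩
  omega

theorem exists_pattern {y : ↥(Subgroup.centralizer ({z} : Set G))} (h1 : F.ψ y ≠ 1)
    (h2 : F.ψ y * F.ψ y = 1) : ∃ k i j l m, Pattern F y k i j l m := by
  obtain ⟨k, i, j, l, m, a, b, c, d, e, f⟩ := alt_invol_struct _ h1 h2
  obtain ⟨g1, g2, g3, g4, g5, g6, g7, g8, g9, g10⟩ := f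
  exact ⟨k, i, j, l, m, a, b, c, d, e, g1, g2, g3, g4, g5, g6, g7, g8, g9, g10⟩

theorem psi_sq {y : ↥(Subgroup.centralizer ({z} : Set G))}
    (hy : (y : G) * y = 1 ∨ (y : G) * y = z) : F.ψ y * F.ψ y = 1 := by
  rw [← map_mul, F.ker]
  rcases hy with e | e
  · exact (Subgroup.coe_mul _ y y).symm ▸ e.symm ▸ Q.one_mem
  · exact (Subgroup.coe_mul _ y y).symm ▸ e.symm ▸ h.z_mem

theorem neg_pair {y : ↥(Subgroup.centralizer ({z} : Set G))}
    (hy : (y : G) * y = 1 ∨ (y : G) * y = z) {i j : Fin 5} (hij : i ≠ j)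
    (hyi : (F.ψ y : Equiv.Perm (Fin 5)) i = j) :
    (y : G) * (F.a i * F.a j) * (y : G)⁻¹ = F.a i * F.a j * z := by
  have hact := F.act y i
  rw [hyi] at hact
  have hyz : (y : G) * z * (y : G)⁻¹ = z := by rw [mem_C.1 y.2, mul_inv_cancel_right]
  have hsq : ∀ {q : G}, q ∈ Q → (y : G) * ((y : G) * q * (y : G)⁻¹) * (y : G)⁻¹ = q := fun {q} hq => by
    rw [show (y : G) * ((y : G) * q * (y : G)⁻¹) * (y : G)⁻¹ =
      (y : G) * y * q * ((y : G) * y)⁻¹ by group]
    rcases hy with e | e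
    · rw [e]; group
    · rw [e, ← h.comm_z hq, mul_inv_cancel_right]
  rcases hact with e | e
  · have e' : (y : G) * F.a j * (y : G)⁻¹ = F.a i := by rw [← e]; exact hsq (F.mem i)
    rw [show (y : G) * (F.a i * F.a j) * (y : G)⁻¹ =
      (y : G) * F.a i * (y : G)⁻¹ * ((y : G) * F.a j * (y : G)⁻¹) by group, e, e',
      F.anti i j hij, mul_assoc, h.zz, mul_one]
  · have e' : (y : G) * F.a j * (y : G)⁻¹ = F.a i * z := by
      have := hsq (F.mem i)
      rw [e, show (y : G) * (F.a j * z) * (y : G)⁻¹ =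
        (y : G) * F.a j * (y : G)⁻¹ * ((y : G) * z * (y : G)⁻¹) by group, hyz] at this
      calc (y : G) * F.a j * (y : G)⁻¹ = (y : G) * F.a j * (y : G)⁻¹ * z * z := by
            rw [mul_assoc _ z z, h.zz, mul_one]
        _ = F.a i * z := by rw [this]
    rw [show (y : G) * (F.a i * F.a j) * (y : G)⁻¹ =
      (y : G) * F.a i * (y : G)⁻¹ * ((y : G) * F.a j * (y : G)⁻¹) by group, e, e',
      show F.a j * z * (F.a i * z) = F.a j * (z * F.a i) * z by group, ← h.comm_z (F.mem i),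
      F.anti i j hij, mul_assoc, mul_assoc, h.zz, mul_one, mul_assoc (F.a j * F.a i), h.zz, mul_one]

variable {y : ↥(Subgroup.centralizer ({z} : Set G))} {k i j l m : Fin 5}

theorem fix_point (hy : (y : G) * y = 1 ∨ (y : G) * y = z) (p : Pattern F y k i j l m) :
    (y : G) * F.a k * (y : G)⁻¹ = F.a k := by
  have hb := F.neg_pair h hy p.ij p.fi
  have hb' := F.neg_pair h hy p.lm p.fl
  have hprod : (y : G) * (F.a i * F.a j * (F.a l * F.a m)) * (y : G)⁻¹ =
      F.a i * F.a j * (F.a l * F.a m) := by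
    rw [show (y : G) * (F.a i * F.a j * (F.a l * F.a m)) * (y : G)⁻¹ =
      (y : G) * (F.a i * F.a j) * (y : G)⁻¹ * ((y : G) * (F.a l * F.a m) * (y : G)⁻¹) by group,
      hb, hb', show F.a i * F.a j * z * (F.a l * F.a m * z) =
        F.a i * F.a j * (z * (F.a l * F.a m)) * z by group, ← h.comm_z (F.pair_mem h l m),
      mul_assoc, mul_assoc (F.a l * F.a m), h.zz, mul_one]
  have hz' : (y : G) * z * (y : G)⁻¹ = z := by rw [mem_C.1 y.2, mul_inv_cancel_right]
  rcases Eqv.symm' h.zz (F.four h p.ki p.kj p.kl p.km p.ij p.il p.im p.jl p.jm p.lm) with e | e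
  · rw [e, hprod]
  · rw [e, show (y : G) * (F.a i * F.a j * (F.a l * F.a m) * z) * (y : G)⁻¹ =
      (y : G) * (F.a i * F.a j * (F.a l * F.a m)) * (y : G)⁻¹ * ((y : G) * z * (y : G)⁻¹) by group,
      hprod, hz']

theorem class_fixed (p : Pattern F y k i j l m) {q : G} (hq : q ∈ Q)
    (hfix : Eqv z ((y : G) * q * (y : G)⁻¹) q) :
    Eqv z q 1 ∨ Eqv z q (F.a k) ∨ Eqv z q (F.a i * F.a j) ∨ Eqv z q (F.a l * F.a m) := by
  rcases F.cases_mem h hq with e | ⟨n, e⟩ | ⟨n, n', hnn, e⟩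
  · exact Or.inl e
  · have e' : Eqv z (F.a ((F.ψ y : Equiv.Perm (Fin 5)) n)) (F.a n) :=
      Eqv.trans' h.zz (Eqv.symm' h.zz (F.act y n))
        (Eqv.trans' h.zz (Eqv.symm' h.zz (Eqv.conj' (mem_C.1 y.2) e)) (Eqv.trans' h.zz hfix e))
    have hn : (F.ψ y : Equiv.Perm (Fin 5)) n = n := F.inj _ _ e'
    obtain rfl : n = k := by
      have hn' : n = k ∨ n = i ∨ n = j ∨ n = l ∨ n = m := by
        have := p.ki; have := p.kj; have := p.kl; have := p.km; have := p.ij; have := p.il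
        have := p.im; have := p.jl; have := p.jm; have := p.lm
        omega
      rcases hn' with rfl | rfl | rfl | rfl | rfl
      · rfl
      · exact absurd (hn.symm.trans p.fi) p.ij
      · exact absurd (hn.symm.trans p.fj) p.ij.symm
      · exact absurd (hn.symm.trans p.fl) p.lm
      · exact absurd (hn.symm.trans p.fm) p.lm.symm
    exact Or.inr (Or.inl e)
  · have e' : Eqv z (F.a ((F.ψ y : Equiv.Perm (Fin 5)) n) * F.a ((F.ψ y : Equiv.Perm (Fin 5)) n'))
        (F.a n * F.a n') :=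
      Eqv.trans' h.zz (Eqv.symm' h.zz (F.act_pair h y n n'))
        (Eqv.trans' h.zz (Eqv.symm' h.zz (Eqv.conj' (mem_C.1 y.2) e)) (Eqv.trans' h.zz hfix e))
    have hpi := F.pair_inj h (fun he => hnn ((F.ψ y : Equiv.Perm (Fin 5)).injective he)) hnn e'
    have hcases : ∀ a : Fin 5, a = k ∨ a = i ∨ a = j ∨ a = l ∨ a = m := fun a => by
      have := p.ki; have := p.kj; have := p.kl; have := p.km; have := p.ij; have := p.il
      have := p.im; have := p.jl; have := p.jm; have := p.lm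
      omega
    have hkey : (n = i ∧ n' = j) ∨ (n = j ∧ n' = i) ∨ (n = l ∧ n' = m) ∨ (n = m ∧ n' = l) := by
      have := p.fk; have := p.fi; have := p.fj; have := p.fl; have := p.fm
      have := p.ki; have := p.kj; have := p.kl; have := p.km; have := p.ij; have := p.il
      have := p.im; have := p.jl; have := p.jm; have := p.lm
      rcases hcases n with rfl | rfl | rfl | rfl | rfl <;>
        rcases hcases n' with rfl | rfl | rfl | rfl | rfl <;> simp_all
    rcases hkey with ⟨rfl, rfl⟩ | ⟨rfl, rfl⟩ | ⟨rfl, rfl⟩ | ⟨rfl, rfl⟩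
    · exact Or.inr (Or.inr (Or.inl e))
    · exact Or.inr (Or.inr (Or.inl (Eqv.trans' h.zz e (F.pair_swap h p.ij.symm))))
    · exact Or.inr (Or.inr (Or.inr e))
    · exact Or.inr (Or.inr (Or.inr (Eqv.trans' h.zz e (F.pair_swap h p.lm.symm))))

theorem centralizer_cases (hy : (y : G) * y = 1 ∨ (y : G) * y = z) (p : Pattern F y k i j l m)
    {q : G} (hq : q ∈ Q) (hc : (y : G) * q = q * y) :
    q = 1 ∨ q = z ∨ q = F.a k ∨ q = F.a k * z := by
  have hfix : (y : G) * q * (y : G)⁻¹ = q := mul_inv_eq_iff_eq_mul.2 hc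
  have hbad : ∀ {r : G}, r ∈ Q → (y : G) * r * (y : G)⁻¹ = r * z → Eqv z q r → False := by
    intro r hr hr' e
    rcases e with rfl | rfl
    · exact h.z_ne_one (mul_eq_left.1 (hr'.symm.trans hfix))
    · rw [show (y : G) * (r * z) * (y : G)⁻¹ =
        (y : G) * r * (y : G)⁻¹ * ((y : G) * z * (y : G)⁻¹) by group, hr', mem_C.1 y.2,
        mul_inv_cancel_right] at hfix
      exact h.z_ne_one (mul_eq_left.1 hfix)
  rcases F.class_fixed h p hq (Or.inl hfix) with (e | e) | (e | e) | e | e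
  · exact Or.inl e
  · exact Or.inr (Or.inl (e.trans (one_mul z)))
  · exact Or.inr (Or.inr (Or.inl e))
  · exact Or.inr (Or.inr (Or.inr e))
  · exact (hbad (F.pair_mem h i j) (F.neg_pair h hy p.ij p.fi) e).elim
  · exact (hbad (F.pair_mem h l m) (F.neg_pair h hy p.lm p.fl) e).elim

end

end Frame

end CfsgLib.InvChar.HallJanko
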