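import Mathlib
import Cfsg.Prelude.Def_Classical

/-!
The isometry group of the elliptic form in dimension 4 over `F₂` is `S₅`, acting on the five
singular points, so its commutator subgroup is `A₅`.
-/

set_option autoImplicit false
set_option maxRecDepth 100000
set_option synthInstance.maxSize 2000
set_option synthInstance.maxHeartbeats 200000
set_option maxSynthPendingDepth 3

open Matrix

namespace CfsgLib.InvChar.HallJanko

/-- Coordinates. -/
abbrev Co : Type := (Fin 1 ⊕ Fin 1) ⊕ Fin 2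

/-- The elliptic form. -/
abbrev qE (v : Co → ZMod 2) : ZMod 2 := Cfsg.quadFormMinus 1 (ZMod 2) 1 1 v

/-- A singular point. -/
abbrev Sing : Type := {v : Co → ZMod 2 // v ≠ 0 ∧ qE v = 0}

theorem card_sing : Fintype.card Sing = 5 := by decide +kernel

/-- The reflection in `v`. -/
def refl (v : Co → ZMod 2) : Matrix Co Co (ZMod 2) :=
  fun i j => (if i = j then 1 else 0) + v i * (qE (Pi.single j 1 + v) + qE (Pi.single j 1) + qE v)

theorem refl_spec : ∀ v : Co → ZMod 2, qE v = 1 →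
    refl v * refl v = 1 ∧ ∀ u, qE (refl v *ᵥ u) = qE u := by decide +kernel

theorem refl_swap : ∀ p q : Sing, p ≠ q → qE (p.1 + q.1) = 1 ∧
    ∀ r : Sing, refl (p.1 + q.1) *ᵥ r.1 = (Equiv.swap p q r).1 := by decide +kernel

/-- The isometry group. -/
abbrev OE : Subgroup (GL Co (ZMod 2)) := Cfsg.isometryGroup (ZMod 2) qE

theorem mem_OE {M : GL Co (ZMod 2)} :
    M ∈ OE ↔ ∀ u, qE ((M : Matrix Co Co (ZMod 2)) *ᵥ u) = qE u :=
  ⟨fun h u => h u u, fun h u _ => h u⟩

theorem coe_mul_OE (g h : ↥OE) :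
    (((g * h : ↥OE) : GL Co (ZMod 2)) : Matrix Co Co (ZMod 2)) =
      ((g : GL Co (ZMod 2)) : Matrix Co Co (ZMod 2)) *
        ((h : GL Co (ZMod 2)) : Matrix Co Co (ZMod 2)) := rfl

theorem OE_cancel (g h : ↥OE) (e : g * h = 1) (v : Co → ZMod 2) :
    ((g : GL Co (ZMod 2)) : Matrix Co Co (ZMod 2)) *ᵥ
      (((h : GL Co (ZMod 2)) : Matrix Co Co (ZMod 2)) *ᵥ v) = v := by
  rw [mulVec_mulVec, ← coe_mul_OE, e]
  exact one_mulVec v

/-- Action of an isometry on singular points. -/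
def singMap (g : ↥OE) (p : Sing) : Sing :=
  ⟨((g : GL Co (ZMod 2)) : Matrix Co Co (ZMod 2)) *ᵥ p.1, by
    refine ⟨fun h => p.2.1 ?_, by rw [mem_OE.1 g.2]; exact p.2.2⟩
    rw [← OE_cancel g⁻¹ g (inv_mul_cancel g) p.1, h, mulVec_zero]⟩

/-- The permutation representation. -/
def toPerm : ↥OE →* Equiv.Perm Sing where
  toFun g :=
    { toFun := singMap g
      invFun := singMap g⁻¹
      left_inv := fun p => Subtype.ext (OE_cancel g⁻¹ g (inv_mul_cancel g) p.1)
      right_inv := fun p => Subtype.ext (OE_cancel g g⁻¹ (mul_inv_cancel g) p.1) }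
  map_one' := Equiv.ext fun p => Subtype.ext (one_mulVec p.1)
  map_mul' g h := Equiv.ext fun p => Subtype.ext (by
    show (((g * h : ↥OE) : GL Co (ZMod 2)) : Matrix Co Co (ZMod 2)) *ᵥ p.1 =
      ((g : GL Co (ZMod 2)) : Matrix Co Co (ZMod 2)) *ᵥ
        (((h : GL Co (ZMod 2)) : Matrix Co Co (ZMod 2)) *ᵥ p.1)
    rw [mulVec_mulVec, coe_mul_OE])

theorem toPerm_surjective : Function.Surjective toPerm := by
  have h : (⊤ : Subgroup (Equiv.Perm Sing)) ≤ toPerm.range := by
    rw [← Equiv.Perm.closure_isSwap, Subgroup.closure_le]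
    rintro σ ⟨p, q, hpq, rfl⟩
    obtain ⟨hv, hr⟩ := refl_swap p q hpq
    obtain ⟨hsq, hform⟩ := refl_spec _ hv
    exact ⟨⟨⟨refl (p.1 + q.1), refl (p.1 + q.1), hsq, hsq⟩, mem_OE.2 hform⟩,
      Equiv.ext fun r => Subtype.ext (hr r)⟩
  exact fun σ => h (Subgroup.mem_top σ)

theorem span_check : ∀ i : Co, ∃ p q r : Sing,
    (Pi.single i 1 : Co → ZMod 2) = p.1 ∨ (Pi.single i 1 : Co → ZMod 2) = p.1 + q.1 + r.1 := by
  decide +kernel

theorem toPerm_injective : Function.Injective toPerm := by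
  rw [← MonoidHom.ker_eq_bot_iff, eq_bot_iff]
  intro g hg
  have hfix : ∀ p : Sing, ((g : GL Co (ZMod 2)) : Matrix Co Co (ZMod 2)) *ᵥ p.1 = p.1 := fun p =>
    congrArg Subtype.val (Equiv.congr_fun (MonoidHom.mem_ker.1 hg) p)
  refine Subgroup.mem_bot.2 (Subtype.ext (Units.ext (ext_of_mulVec_single fun i => ?_)))
  obtain ⟨p, q, r, h | h⟩ := span_check i
  · rw [h]
    simpa using hfix p
  · rw [h, mulVec_add, mulVec_add, hfix, hfix, hfix]
    simp [mulVec_add]

/-- `Ω⁻₄(2) ≅ A₅`. -/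
theorem omega_minus_four_equiv_alt :
    Nonempty (↥(Cfsg.Omega (ZMod 2) (Cfsg.quadFormMinus 1 (ZMod 2) 1 1)) ≃*
      alternatingGroup (Fin 5)) := by
  let e : ↥OE ≃* Equiv.Perm (Fin 5) :=
    (MulEquiv.ofBijective toPerm ⟨toPerm_injective, toPerm_surjective⟩).trans
      (Fintype.equivFinOfCardEq card_sing).permCongrHom
  have h : (commutator ↥OE).map e.toMonoidHom = alternatingGroup (Fin 5) := by
    rw [commutator_def, Subgroup.map_commutator,
      Subgroup.map_top_of_surjective _ e.surjective, ← commutator_def]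
    exact alternatingGroup.commutator_perm_eq (by simp)
  exact ⟨((commutator ↥OE).equivMapOfInjective e.toMonoidHom e.injective).trans
    (MulEquiv.subgroupCongr h)⟩

end CfsgLib.InvChar.HallJanko
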